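import Mathlib
import Cfsg.Prelude.Def_Transfer
import Cfsg.Agent.Lib.Helper70.HallWielandt
import Cfsg.Agent.Lib.Helper55.Transfer
import Cfsg.Agent.Lib.Helper87.PGroupFrattini
import Cfsg.Agent.Lib.Helper50.SylowAux

/-!
# Yoshida-type transfer theorem for weakly closed subgroups

`S` a Sylow `p`-subgroup of `G`, `W ≤ S` weakly closed in `S` with respect to `G`.  If for all
`x ∈ S`, `z ∈ W` and maximal subgroups `W₀` of `W` the iterated commutator `[x, z; p-1]` lies in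
`Φ(W₀)` as soon as it lies in `W₀`, then every homomorphism from `N_G(W)` to a group of order `p`
extends to `G` (`exists_extension_prime'`), so `N_G(W)` controls `p`-transfer.

The proof evaluates the transfer `G → N_G(W) → Z` on `x ∈ S` orbit by orbit for the action of
`X = W⟨x⟩` on `G / N_G(W)`, using the cocycle `tc`.
-/

set_option autoImplicit false
set_option linter.unusedSectionVars false
set_option linter.style.haveILetI false

namespace Cfsg.Agent.Lib.Helper10.Yoshida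

open scoped Classical

section Cocycle

variable {G : Type*} [Group G] {H : Subgroup G} {Z : Type*} [CommGroup Z]

theorem out_mem (g : G) (q : G ⧸ H) : q.out⁻¹ * g * (g⁻¹ • q).out ∈ H := by
  rw [mul_assoc, ← QuotientGroup.eq, QuotientGroup.out_eq']
  show q = g • (((g⁻¹ • q).out : G) : G ⧸ H)
  rw [QuotientGroup.out_eq', smul_inv_smul]

theorem smul_eq_iff (g : G) (q : G ⧸ H) : g • q = q ↔ q.out⁻¹ * g * q.out ∈ H := by
  have h1 : g • q = QuotientGroup.mk (g * q.out) := by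
    conv_lhs => rw [← QuotientGroup.out_eq' q]
    rfl
  have h2 : q = QuotientGroup.mk q.out := (QuotientGroup.out_eq' q).symm
  constructor
  · intro h
    have h3 : (QuotientGroup.mk (q.out) : G ⧸ H) = QuotientGroup.mk (g * q.out) := by
      rw [← h1, h, ← h2]
    rw [QuotientGroup.eq] at h3
    rw [mul_assoc]; exact h3
  · intro h
    rw [h1]
    conv_rhs => rw [h2]
    symm
    rw [QuotientGroup.eq, ← mul_assoc]; exact h

theorem conj_pow' (a y : G) (m : ℕ) : (a⁻¹ * y * a) ^ m = a⁻¹ * y ^ m * a := by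
  induction m with
  | zero => simp
  | succ m ih => rw [pow_succ, ih, pow_succ]; group

/-- the transfer cocycle -/
noncomputable def tc (H : Subgroup G) (Λ : G → Z) (g : G) (q : G ⧸ H) : Z :=
  Λ (q.out⁻¹ * g * (g⁻¹ • q).out)

theorem tc_one (Λ : G → Z) (h1 : Λ 1 = 1) (q : G ⧸ H) : tc H Λ 1 q = 1 := by
  unfold tc; rw [inv_one, one_smul, mul_one, inv_mul_cancel, h1]

theorem tc_mul (Λ : G → Z) (hΛ : ∀ a ∈ H, ∀ b ∈ H, Λ (a * b) = Λ a * Λ b) (g g' : G)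
    (q : G ⧸ H) : tc H Λ (g * g') q = tc H Λ g q * tc H Λ g' (g⁻¹ • q) := by
  unfold tc
  rw [← hΛ _ (out_mem g q) _ (out_mem g' (g⁻¹ • q))]
  congr 1
  rw [mul_inv_rev, mul_smul]
  group

theorem tc_fixed (Λ : G → Z) (g : G) (q : G ⧸ H) (h : g • q = q) :
    tc H Λ g q = Λ (q.out⁻¹ * g * q.out) := by
  unfold tc
  have h1 : g⁻¹ • q = q := by rw [inv_smul_eq_iff, h]
  rw [h1]

theorem tc_pow (Λ : G → Z) (hΛ : ∀ a ∈ H, ∀ b ∈ H, Λ (a * b) = Λ a * Λ b) (h1 : Λ 1 = 1)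
    (y : G) (n : ℕ) (q : G ⧸ H) :
    tc H Λ (y ^ n) q = ∏ j ∈ Finset.range n, tc H Λ y ((y⁻¹) ^ j • q) := by
  induction n with
  | zero => simp [tc_one Λ h1]
  | succ n ih => rw [pow_succ, tc_mul Λ hΛ, ih, Finset.prod_range_succ, inv_pow]

theorem prod_smul_eq (O : Finset (G ⧸ H)) (m : G) (hm : ∀ q ∈ O, m • q ∈ O)
    (hm' : ∀ q ∈ O, m⁻¹ • q ∈ O) (f : G ⧸ H → Z) :
    ∏ q ∈ O, f (m • q) = ∏ q ∈ O, f q := by
  refine Finset.prod_bij' (fun q _ => m • q) (fun q _ => m⁻¹ • q) hm hm' ?_ ?_ ?_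
  · intro q _; simp
  · intro q _; simp
  · intro q _; rfl

theorem th_mul (Λ : G → Z) (hΛ : ∀ a ∈ H, ∀ b ∈ H, Λ (a * b) = Λ a * Λ b)
    (O : Finset (G ⧸ H)) (m m' : G) (hm : ∀ q ∈ O, m • q ∈ O) (hm' : ∀ q ∈ O, m⁻¹ • q ∈ O) :
    ∏ q ∈ O, tc H Λ (m * m') q = (∏ q ∈ O, tc H Λ m q) * ∏ q ∈ O, tc H Λ m' q := by
  rw [← prod_smul_eq O m⁻¹ hm' (by simpa using hm) (fun q => tc H Λ m' q),
    ← Finset.prod_mul_distrib]
  exact Finset.prod_congr rfl (fun q _ => tc_mul Λ hΛ m m' q)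

theorem th_conj (Λ : G → Z) (hΛ : ∀ a ∈ H, ∀ b ∈ H, Λ (a * b) = Λ a * Λ b) (h1 : Λ 1 = 1)
    (O : Finset (G ⧸ H)) (x z : G) (hx : ∀ q ∈ O, (z⁻¹ * x * z) • q ∈ O)
    (hx' : ∀ q ∈ O, (z⁻¹ * x * z)⁻¹ • q ∈ O) :
    ∏ q ∈ O, tc H Λ x (z • q) = ∏ q ∈ O, tc H Λ (z⁻¹ * x * z) q := by
  have hpt : ∀ q, tc H Λ (z⁻¹ * x * z) q * tc H Λ z (z • q)
      = tc H Λ x (z • q) * tc H Λ z (z • (z⁻¹ * x * z)⁻¹ • q) := by
    intro q
    have e1 := tc_mul Λ hΛ (z⁻¹ * x) z q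
    have e2 := tc_mul Λ hΛ z⁻¹ x q
    have e3 := tc_mul Λ hΛ z⁻¹ z q
    rw [inv_mul_cancel, tc_one Λ h1] at e3
    rw [inv_inv] at e2 e3
    have e4 : (z⁻¹ * x)⁻¹ • q = z • (z⁻¹ * x * z)⁻¹ • q := by
      rw [smul_smul]; congr 1; group
    rw [e1, e2, e4]
    calc tc H Λ z⁻¹ q * tc H Λ x (z • q) * tc H Λ z (z • (z⁻¹ * x * z)⁻¹ • q)
          * tc H Λ z (z • q)
        = (tc H Λ z⁻¹ q * tc H Λ z (z • q)) *
          (tc H Λ x (z • q) * tc H Λ z (z • (z⁻¹ * x * z)⁻¹ • q)) := by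
          simp only [mul_assoc, mul_comm, mul_left_comm]
      _ = _ := by rw [← e3, one_mul]
  have h2 : ∏ q ∈ O, tc H Λ z (z • (z⁻¹ * x * z)⁻¹ • q) = ∏ q ∈ O, tc H Λ z (z • q) :=
    prod_smul_eq O (z⁻¹ * x * z)⁻¹ hx' (by simpa using hx) (fun q => tc H Λ z (z • q))
  have h3 : (∏ q ∈ O, tc H Λ (z⁻¹ * x * z) q) * ∏ q ∈ O, tc H Λ z (z • q)
      = (∏ q ∈ O, tc H Λ x (z • q)) * ∏ q ∈ O, tc H Λ z (z • q) := by
    calc (∏ q ∈ O, tc H Λ (z⁻¹ * x * z) q) * ∏ q ∈ O, tc H Λ z (z • q)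
        = ∏ q ∈ O, (tc H Λ (z⁻¹ * x * z) q * tc H Λ z (z • q)) :=
          Finset.prod_mul_distrib.symm
      _ = ∏ q ∈ O, (tc H Λ x (z • q) * tc H Λ z (z • (z⁻¹ * x * z)⁻¹ • q)) :=
          Finset.prod_congr rfl (fun q _ => hpt q)
      _ = (∏ q ∈ O, tc H Λ x (z • q)) * ∏ q ∈ O, tc H Λ z (z • (z⁻¹ * x * z)⁻¹ • q) :=
          Finset.prod_mul_distrib
      _ = _ := by rw [h2]
  exact (mul_right_cancel h3).symm

theorem transfer_eq [H.FiniteIndex] [Fintype (G ⧸ H)] (ζ : H →* Z) (Λ : G → Z)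
    (hΛ : ∀ g (h : g ∈ H), Λ g = ζ ⟨g, h⟩) (g : G) :
    MonoidHom.transfer ζ g = ∏ q : G ⧸ H, tc H Λ g q := by
  obtain ⟨hmem, hT⟩ := Cfsg.Agent.Lib.Helper55.transfer_eq_prod_out ζ g
  rw [hT]
  refine Finset.prod_congr rfl (fun q _ => ?_)
  unfold tc
  rw [hΛ _ (hmem q)]

end Cocycle

section Orbits

variable {G : Type*} [Group G] {H : Subgroup G} {Z : Type*} [CommGroup Z] [Fintype (G ⧸ H)]

/-- the orbit of `q` under the subgroup `Y`, as a finset -/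
noncomputable def orb (Y : Subgroup G) (q : G ⧸ H) : Finset (G ⧸ H) :=
  Finset.univ.filter (fun r => ∃ y ∈ Y, y • q = r)

theorem mem_orb {Y : Subgroup G} {q r : G ⧸ H} : r ∈ orb Y q ↔ ∃ y ∈ Y, y • q = r := by
  simp [orb]

theorem self_mem_orb (Y : Subgroup G) (q : G ⧸ H) : q ∈ orb Y q :=
  mem_orb.mpr ⟨1, Y.one_mem, one_smul _ _⟩

theorem smul_mem_orb {Y : Subgroup G} {q r : G ⧸ H} {y : G} (hy : y ∈ Y) (hr : r ∈ orb Y q) :
    y • r ∈ orb Y q := by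
  obtain ⟨y', hy', rfl⟩ := mem_orb.mp hr
  exact mem_orb.mpr ⟨y * y', Y.mul_mem hy hy', mul_smul _ _ _⟩

/-- a product over an invariant set all of whose orbit products are trivial is trivial -/
theorem prod_eq_one_of_orbits (Y : Subgroup G) (f : G ⧸ H → Z) :
    ∀ (n : ℕ) (O : Finset (G ⧸ H)), O.card = n → (∀ y ∈ Y, ∀ q ∈ O, y • q ∈ O) →
      (∀ q ∈ O, ∏ r ∈ orb Y q, f r = 1) → ∏ q ∈ O, f q = 1 := by
  intro n
  induction n using Nat.strong_induction_on with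
  | _ n ih =>
    intro O hn hinv hO
    rcases Finset.eq_empty_or_nonempty O with h0 | ⟨q, hq⟩
    · rw [h0]; simp
    have hsub : orb Y q ⊆ O := by
      intro r hr
      obtain ⟨y, hy, rfl⟩ := mem_orb.mp hr
      exact hinv y hy q hq
    rw [← Finset.prod_sdiff hsub, hO q hq, mul_one]
    have hcard : (O \ orb Y q).card < n := by
      rw [← hn]
      apply Finset.card_lt_card
      refine ⟨Finset.sdiff_subset, fun h => ?_⟩
      have := h hq
      rw [Finset.mem_sdiff] at this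
      exact this.2 (self_mem_orb Y q)
    refine ih _ hcard (O \ orb Y q) rfl ?_ ?_
    · intro y hy r hr
      rw [Finset.mem_sdiff] at hr ⊢
      refine ⟨hinv y hy r hr.1, fun h => hr.2 ?_⟩
      have := smul_mem_orb (Y.inv_mem hy) h
      rwa [inv_smul_smul] at this
    · intro r hr
      exact hO r (Finset.mem_sdiff.mp hr).1

/-- the product over a cycle of `y` -/
theorem cycle_prod [Finite G] (y : G) (q : G ⧸ H) (f : G ⧸ H → Z) :
    ∃ n : ℕ, 0 < n ∧ y ^ n • q = q ∧ (n = 1 → y • q = q) ∧ (∀ N : ℕ, y ^ N = 1 → n ∣ N) ∧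
      ∏ r ∈ orb (Subgroup.zpowers y) q, f r = ∏ j ∈ Finset.range n, f ((y⁻¹) ^ j • q) := by
  obtain ⟨n, hn⟩ : ∃ n, n = MulAction.period y⁻¹ q := ⟨_, rfl⟩
  have hpos : 0 < n := by
    rw [hn]; exact MulAction.period_pos_of_orderOf_pos (orderOf_pos y⁻¹) q
  have hper : (y⁻¹) ^ n • q = q := by rw [hn]; exact MulAction.pow_period_smul y⁻¹ q
  have hdvd : ∀ N : ℕ, (y⁻¹) ^ N • q = q → n ∣ N := by
    intro N hN
    rw [hn]; exact MulAction.pow_smul_eq_iff_period_dvd.mp hN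
  refine ⟨n, hpos, ?_, ?_, ?_, ?_⟩
  · rw [inv_pow, inv_smul_eq_iff] at hper
    exact hper.symm
  · intro h1
    rw [h1, pow_one, inv_smul_eq_iff] at hper
    exact hper.symm
  · intro N hN
    apply hdvd
    rw [inv_pow, hN, inv_one, one_smul]
  · have himg : orb (Subgroup.zpowers y) q
        = (Finset.range n).image (fun j => (y⁻¹) ^ j • q) := by
      ext r
      rw [mem_orb, Finset.mem_image]
      constructor
      · rintro ⟨g, hg, rfl⟩
        obtain ⟨i, rfl⟩ := Subgroup.mem_zpowers_iff.mp hg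
        have h1 : (y⁻¹) ^ ((-i) % (n : ℤ)) • q = (y⁻¹) ^ (-i) • q := by
          rw [hn]; exact MulAction.zpow_mod_period_smul (-i)
        have hnz : (n : ℤ) ≠ 0 := by exact_mod_cast hpos.ne'
        have h2 : 0 ≤ (-i) % (n : ℤ) := Int.emod_nonneg _ hnz
        have h3 : (-i) % (n : ℤ) < n := Int.emod_lt_of_pos _ (by exact_mod_cast hpos)
        refine ⟨((-i) % (n : ℤ)).toNat, ?_, ?_⟩
        · rw [Finset.mem_range]; omega
        · show (y⁻¹) ^ ((-i) % (n : ℤ)).toNat • q = y ^ i • q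
          rw [← zpow_natCast, Int.toNat_of_nonneg h2, h1, inv_zpow, zpow_neg, inv_inv]
      · rintro ⟨j, -, rfl⟩
        refine ⟨(y⁻¹) ^ j, ?_, rfl⟩
        rw [inv_pow]
        exact Subgroup.inv_mem _ (Subgroup.pow_mem _ (Subgroup.mem_zpowers y) j)
    have hinj : ∀ i ∈ Finset.range n, ∀ j ∈ Finset.range n,
        (y⁻¹) ^ i • q = (y⁻¹) ^ j • q → i = j := by
      have key : ∀ i j : ℕ, i ≤ j → j < n → (y⁻¹) ^ i • q = (y⁻¹) ^ j • q → i = j := by
        intro i j hij hj h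
        have e : j = i + (j - i) := by omega
        rw [e, pow_add, mul_smul] at h
        have h4 : (y⁻¹) ^ (j - i) • q = q := (smul_left_cancel _ h).symm
        have h5 := hdvd _ h4
        have h6 : j - i = 0 := Nat.eq_zero_of_dvd_of_lt h5 (by omega)
        omega
      intro i hi j hj h
      rw [Finset.mem_range] at hi hj
      rcases le_total i j with hij | hij
      · exact key i j hij hj h
      · exact (key j i hij hi h.symm).symm
    rw [himg, Finset.prod_image hinj]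

end Orbits

section Translates

variable {G : Type*} [Group G] {H : Subgroup G} {Z : Type*} [CommGroup Z] [Fintype (G ⧸ H)]

theorem mem_of_pow_mem {p : ℕ} (hp : p.Prime) (M : Subgroup G) (z : G) (hzp : z ^ p ∈ M)
    (d : ℕ) (hd0 : 0 < d) (hdp : d < p) (hzd : z ^ d ∈ M) : z ∈ M := by
  have hcop : Nat.Coprime d p :=
    Nat.Coprime.symm ((Nat.Prime.coprime_iff_not_dvd hp).mpr (Nat.not_dvd_of_pos_of_lt hd0 hdp))
  have h1 := Nat.gcd_eq_gcd_ab d p
  rw [hcop] at h1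
  have h2 : z = (z ^ d) ^ (Nat.gcdA d p) * (z ^ p) ^ (Nat.gcdB d p) := by
    rw [← zpow_natCast z d, ← zpow_natCast z p, ← zpow_mul, ← zpow_mul, ← zpow_add, ← h1]
    simp
  rw [h2]; exact M.mul_mem (M.zpow_mem hzd _) (M.zpow_mem hzp _)

/-- an `X`-orbit is the disjoint union of `p` translates of an orbit of a maximal subgroup
containing the stabilizer -/
theorem prod_orb_translates {p : ℕ} (hp : p.Prime) (X M : Subgroup G) (q₁ : G ⧸ H) (z : G)
    (hMX : M ≤ X) (hzX : z ∈ X) (hzM : z ∉ M)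
    (hK : ∀ g ∈ X, g • q₁ = q₁ → g ∈ M)
    (hnorm : ∀ g ∈ X, ∀ m ∈ M, g⁻¹ * m * g ∈ M)
    (hpow : ∀ g ∈ X, g ^ p ∈ M)
    (hgen : ∀ y ∈ X, y ∉ M → ∀ g ∈ X, ∃ a : ℤ, ∃ m ∈ M, g = m * y ^ a)
    (f : G ⧸ H → Z) :
    ∏ r ∈ orb X q₁, f r = ∏ j ∈ Finset.range p, ∏ q ∈ orb M q₁, f (z ^ j • q) := by
  rw [← Finset.prod_product' (Finset.range p) (orb M q₁) (fun j q => f (z ^ j • q))]
  symm
  refine Finset.prod_bij (fun x _ => z ^ x.1 • x.2) ?_ ?_ ?_ ?_
  · rintro ⟨j, q⟩ hx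
    rw [Finset.mem_product] at hx
    obtain ⟨m, hm, rfl⟩ := mem_orb.mp hx.2
    exact mem_orb.mpr ⟨z ^ j * m, X.mul_mem (X.pow_mem hzX j) (hMX hm), mul_smul _ _ _⟩
  · rintro ⟨j, q⟩ hx ⟨j', q'⟩ hx' heq
    rw [Finset.mem_product, Finset.mem_range] at hx hx'
    obtain ⟨m, hm, rfl⟩ := mem_orb.mp hx.2
    obtain ⟨m', hm', rfl⟩ := mem_orb.mp hx'.2
    have heq' : z ^ j • m • q₁ = z ^ j' • m' • q₁ := heq
    have hfix : ((z ^ j' * m')⁻¹ * (z ^ j * m)) • q₁ = q₁ := by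
      rw [mul_smul, mul_smul, heq', ← mul_smul (z ^ j') m', inv_smul_smul]
    have hmem := hK _ (X.mul_mem (X.inv_mem (X.mul_mem (X.pow_mem hzX j') (hMX hm')))
      (X.mul_mem (X.pow_mem hzX j) (hMX hm))) hfix
    have hzz : (z ^ j')⁻¹ * z ^ j ∈ M := by
      have e : (z ^ j')⁻¹ * z ^ j = m' * ((z ^ j' * m')⁻¹ * (z ^ j * m)) * m⁻¹ := by group
      rw [e]; exact M.mul_mem (M.mul_mem hm' hmem) (M.inv_mem hm)
    have hjj : j = j' := by
      by_contra hne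
      rcases Nat.lt_or_gt_of_ne hne with hlt | hgt
      · have e : (z ^ j')⁻¹ * z ^ j = (z ^ (j' - j))⁻¹ := by
          have e' : j' = (j' - j) + j := by omega
          conv_lhs => rw [e', pow_add]
          group
        rw [e] at hzz
        exact hzM (mem_of_pow_mem hp M z (hpow z hzX) (j' - j) (by omega) (by omega)
          (by simpa using M.inv_mem hzz))
      · have e : (z ^ j')⁻¹ * z ^ j = z ^ (j - j') := by
          have e' : j = j' + (j - j') := by omega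
          conv_lhs => rw [e', pow_add]
          group
        rw [e] at hzz
        exact hzM (mem_of_pow_mem hp M z (hpow z hzX) (j - j') (by omega) (by omega) hzz)
    subst hjj
    have h5 := smul_left_cancel _ heq'
    rw [Prod.mk.injEq]; exact ⟨rfl, h5⟩
  · intro r hr
    obtain ⟨g, hg, rfl⟩ := mem_orb.mp hr
    obtain ⟨a, m, hm, rfl⟩ := hgen z hzX hzM g hg
    have hpz : (0 : ℤ) < p := by exact_mod_cast hp.pos
    obtain ⟨j, hj⟩ : ∃ j : ℕ, (j : ℤ) = a % p :=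
      ⟨(a % p).toNat, Int.toNat_of_nonneg (Int.emod_nonneg _ hpz.ne')⟩
    have hjp : j < p := by
      have := Int.emod_lt_of_pos a hpz
      omega
    have hza : z ^ a = z ^ j * (z ^ p) ^ (a / p) := by
      rw [← zpow_natCast z j, hj, ← zpow_natCast z p, ← zpow_mul, ← zpow_add,
        Int.emod_add_mul_ediv]
    refine ⟨(j, ((z ^ j)⁻¹ * m * z ^ j * (z ^ p) ^ (a / p)) • q₁), ?_, ?_⟩
    · rw [Finset.mem_product, Finset.mem_range]
      exact ⟨hjp, mem_orb.mpr ⟨_, M.mul_mem (hnorm _ (X.pow_mem hzX j) m hm)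
        (M.zpow_mem (hpow z hzX) _), rfl⟩⟩
    · show z ^ j • ((z ^ j)⁻¹ * m * z ^ j * (z ^ p) ^ (a / p)) • q₁ = (m * z ^ a) • q₁
      rw [smul_smul, hza]; congr 1; group
  · rintro ⟨j, q⟩ _; rfl

end Translates

section Main

open Cfsg.Agent.Lib.Helper70

theorem exists_maximal {G : Type*} [Group G] [Finite G] {p : ℕ} [Fact p.Prime]
    (X K : Subgroup G) (hX : IsPGroup p X) (hKX : K ≤ X) (hne : ∃ g ∈ X, g ∉ K) :
    ∃ M : Subgroup G, K ≤ M ∧ M ≤ X ∧ (∃ g ∈ X, g ∉ M) ∧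
      (∀ g ∈ X, ∀ m ∈ M, g⁻¹ * m * g ∈ M) ∧ (∀ g ∈ X, g ^ p ∈ M) ∧
      (∀ y ∈ X, y ∉ M → ∀ g ∈ X, ∃ a : ℤ, ∃ m ∈ M, g = m * y ^ a) := by
  obtain ⟨g₀, hg₀X, hg₀K⟩ := hne
  have hK' : K.subgroupOf X ≠ ⊤ := by
    intro h
    have h1 : (⟨g₀, hg₀X⟩ : X) ∈ K.subgroupOf X := by rw [h]; exact Subgroup.mem_top _
    exact hg₀K (Subgroup.mem_subgroupOf.mp h1)
  obtain ⟨M', hM', hKM'⟩ := (eq_top_or_exists_le_coatom (K.subgroupOf X)).resolve_left hK'
  haveI : M'.Normal := Cfsg.Agent.Lib.Helper87.coatom_normal87 hX hM'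
  have hmem : ∀ g (hg : g ∈ X), g ∈ M'.map X.subtype ↔ (⟨g, hg⟩ : X) ∈ M' := by
    intro g hg
    constructor
    · rintro ⟨y, hy, hyg⟩
      have h1 : y = ⟨g, hg⟩ := Subtype.ext hyg
      rw [← h1]; exact hy
    · intro h; exact ⟨⟨g, hg⟩, h, rfl⟩
  have hMX : M'.map X.subtype ≤ X := Subgroup.map_subtype_le _
  refine ⟨M'.map X.subtype, ?_, hMX, ?_, ?_, ?_, ?_⟩
  · intro k hk
    rw [hmem k (hKX hk)]
    exact hKM' (Subgroup.mem_subgroupOf.mpr hk)
  · obtain ⟨y, hy⟩ : ∃ y : X, y ∉ M' := by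
      by_contra hcon
      push Not at hcon
      exact hM'.1 (eq_top_iff.2 fun y _ => hcon y)
    exact ⟨y, y.2, fun h => hy ((hmem y y.2).mp h)⟩
  · intro g hg m hm
    have hmX := hMX hm
    rw [hmem _ (X.mul_mem (X.mul_mem (X.inv_mem hg) hmX) hg)]
    have h1 := (hmem m hmX).mp hm
    have h2 := Subgroup.Normal.conj_mem ‹M'.Normal› _ h1 (⟨g, hg⟩ : X)⁻¹
    rw [inv_inv] at h2
    exact h2
  · intro g hg
    rw [hmem _ (X.pow_mem hg p)]
    exact Cfsg.Agent.Lib.Helper87.pow_p_mem_coatom hX hM' ⟨g, hg⟩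
  · intro y hy hyM g hg
    have hy' : (⟨y, hy⟩ : X) ∉ M' := fun h => hyM ((hmem y hy).mpr h)
    obtain ⟨a, m, hm, h⟩ := Cfsg.Agent.Lib.Helper87.coatom_quot_zpow hM' hy' ⟨g, hg⟩
    refine ⟨a, m, ⟨m, hm, rfl⟩, ?_⟩
    have h1 := congrArg Subtype.val h
    simpa using h1

theorem fixed_eq {G : Type*} [Group G] [Finite G] {p : ℕ} [Fact p.Prime] (S : Sylow p G)
    (W : Subgroup G) (hW : Cfsg.IsWeaklyClosed W (S : Subgroup G)) (H : Subgroup G)
    (hH : H = Subgroup.normalizer (W : Set G)) (q : G ⧸ H)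
    (hq : ∀ w ∈ W, w • q = q) : q = QuotientGroup.mk 1 := by
  have hmemH : ∀ g, g ∈ Subgroup.normalizer (W : Set G) → g ∈ H :=
    fun g hg => by rw [hH]; exact hg
  have hSH : (S : Subgroup G) ≤ H := by rw [hH]; exact HW.le_normalizer_of_wc hW
  have hidx : ¬ p ∣ (S : Subgroup G).relIndex H :=
    fun hd => S.not_dvd_index (hd.trans (Subgroup.relIndex_dvd_index_of_le hSH))
  have hB : W.map (MulAut.conj q.out⁻¹).toMonoidHom ≤ H := by
    rintro _ ⟨w, hw, rfl⟩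
    have h1 := (smul_eq_iff w q).mp (hq w hw)
    show q.out⁻¹ * w * q.out⁻¹⁻¹ ∈ _
    rwa [inv_inv]
  obtain ⟨k, hk, hle⟩ := Cfsg.Agent.Lib.Helper50.exists_conj_le_of_not_dvd_relIndex
    (S : Subgroup G) _ _ hB S.2 ((S.2.to_le hW.1).map _) hidx
  have hak : q.out * k ∈ H := by
    apply hmemH
    apply HW.mem_normalizer_of_wc hW
    intro w hw
    obtain ⟨s, hs, hse⟩ := hle ⟨w, hw, rfl⟩
    have e1 : k * s * k⁻¹ = q.out⁻¹ * w * q.out⁻¹⁻¹ := hse
    have e2 : (q.out * k)⁻¹ * w * (q.out * k) = s := by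
      have e3 : s = k⁻¹ * (k * s * k⁻¹) * k := by group
      rw [e3, e1]; group
    rw [e2]; exact hs
  have hout : q.out ∈ H := by
    have h1 := H.mul_mem hak (H.inv_mem hk)
    rwa [mul_inv_cancel_right] at h1
  have h2 : (QuotientGroup.mk q.out : G ⧸ H) = QuotientGroup.mk 1 := by
    rw [QuotientGroup.eq, mul_one]
    exact H.inv_mem hout
  rw [← h2]; exact (QuotientGroup.out_eq' q).symm

theorem lam_conj {G : Type*} [Group G] {H : Subgroup G} {Z : Type*} [CommGroup Z] (Λ : G → Z)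
    (hΛ : ∀ a ∈ H, ∀ b ∈ H, Λ (a * b) = Λ a * Λ b) (h1 : Λ 1 = 1) {k s : G} (hk : k ∈ H)
    (hs : s ∈ H) : Λ (k⁻¹ * s * k) = Λ s := by
  rw [hΛ _ (H.mul_mem (H.inv_mem hk) hs) _ hk, hΛ _ (H.inv_mem hk) _ hs, mul_comm (Λ k⁻¹),
    mul_assoc, ← hΛ _ (H.inv_mem hk) _ hk, inv_mul_cancel, h1, mul_one]

theorem dagger {G : Type*} [Group G] [Finite G] {p : ℕ} [Fact p.Prime] (S : Sylow p G)
    (H : Subgroup G) (hSH : (S : Subgroup G) ≤ H) {Z : Type*} [CommGroup Z]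
    (hexp : ∀ a : Z, a ^ p = 1) (ζ : H →* Z) (Λ : G → Z)
    (hΛ : ∀ a ∈ H, ∀ b ∈ H, Λ (a * b) = Λ a * Λ b) (h1 : Λ 1 = 1) (k : ℕ)
    (IH : ∀ s ∈ (S : Subgroup G), s ^ p ^ k = 1 → MonoidHom.transfer ζ s = Λ s)
    (x : G) (hx : x ^ p ^ (k + 1) = 1) (a : G) (n : ℕ) (hn : p ∣ n)
    (hmem : a⁻¹ * x ^ n * a ∈ H) : Λ (a⁻¹ * x ^ n * a) = 1 := by
  have hp : p.Prime := Fact.out
  obtain ⟨n', rfl⟩ := hn
  obtain ⟨u, hu⟩ : ∃ u, u = a⁻¹ * x ^ (p * n') * a := ⟨_, rfl⟩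
  rw [← hu] at hmem ⊢
  have hupow : u ^ p ^ k = 1 := by
    have e : p * n' * p ^ k = p ^ (k + 1) * n' := by ring
    rw [hu, conj_pow', ← pow_mul, e, pow_mul, hx, one_pow, mul_one, inv_mul_cancel]
  have hB : Subgroup.zpowers u ≤ H := by rw [Subgroup.zpowers_le]; exact hmem
  have hBp : IsPGroup p (Subgroup.zpowers u) := by
    obtain ⟨j, -, hj⟩ := (Nat.dvd_prime_pow hp).mp (orderOf_dvd_of_pow_eq_one hupow)
    exact IsPGroup.of_card (n := j) (by rw [Nat.card_zpowers, hj])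
  have hidx : ¬ p ∣ (S : Subgroup G).relIndex H :=
    fun hd => S.not_dvd_index (hd.trans (Subgroup.relIndex_dvd_index_of_le hSH))
  obtain ⟨k₀, hk₀, hle⟩ := Cfsg.Agent.Lib.Helper50.exists_conj_le_of_not_dvd_relIndex
    (S : Subgroup G) _ H hB S.2 hBp hidx
  obtain ⟨s, hs, hse⟩ := hle (Subgroup.mem_zpowers u)
  have e1 : k₀ * s * k₀⁻¹ = u := hse
  have e2 : s = k₀⁻¹ * u * k₀ := by rw [← e1]; group
  have e3 : s = (a * k₀)⁻¹ * x ^ (p * n') * (a * k₀) := by rw [e2, hu]; group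
  have hspow : s ^ p ^ k = 1 := by rw [e2, conj_pow', hupow, mul_one, inv_mul_cancel]
  have hT := IH s hs hspow
  have hT2 : MonoidHom.transfer ζ s = 1 := by
    rw [e3, map_mul, map_mul, map_inv, map_pow, pow_mul, hexp, one_pow, mul_one, inv_mul_cancel]
  have hΛs : Λ s = Λ u := by
    rw [e2]; exact lam_conj Λ hΛ h1 hk₀ hmem
  rw [← hΛs, ← hT, hT2]

theorem caseA {G : Type*} [Group G] [Finite G] {H : Subgroup G} [Fintype (G ⧸ H)] {Z : Type*}
    [CommGroup Z] {p : ℕ} (hp : p.Prime) (Λ : G → Z)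
    (hΛ : ∀ a ∈ H, ∀ b ∈ H, Λ (a * b) = Λ a * Λ b) (h1 : Λ 1 = 1) (k : ℕ)
    (x : G) (hx : x ^ p ^ (k + 1) = 1)
    (hdag : ∀ (a : G) (n : ℕ), p ∣ n → a⁻¹ * x ^ n * a ∈ H → Λ (a⁻¹ * x ^ n * a) = 1)
    (O : Finset (G ⧸ H)) (hinv : ∀ y ∈ Subgroup.zpowers x, ∀ q ∈ O, y • q ∈ O)
    (hnofix : ∀ q ∈ O, x • q ≠ q) : ∏ q ∈ O, tc H Λ x q = 1 := by
  refine prod_eq_one_of_orbits (Subgroup.zpowers x) _ _ O rfl hinv ?_
  intro q hq
  obtain ⟨n, hpos, hfix, hone, hdvd, hprod⟩ := cycle_prod x q (tc H Λ x)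
  rw [hprod, ← tc_pow Λ hΛ h1, tc_fixed Λ _ q hfix]
  apply hdag _ _ _ ((smul_eq_iff _ q).mp hfix)
  obtain ⟨i, -, hi⟩ := (Nat.dvd_prime_pow hp).mp (hdvd _ hx)
  rcases Nat.eq_zero_or_pos i with h0 | h0
  · rw [h0, pow_zero] at hi
    exact absurd (hone hi) (hnofix q hq)
  · rw [hi]; exact dvd_pow_self p h0.ne'

theorem caseB {G : Type*} [Group G] [Finite G] {H : Subgroup G} [Fintype (G ⧸ H)] {Z : Type*}
    [CommGroup Z] {p : ℕ} [Fact p.Prime] (Λ : G → Z)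
    (hΛ : ∀ a ∈ H, ∀ b ∈ H, Λ (a * b) = Λ a * Λ b) (h1 : Λ 1 = 1) (hexp : ∀ a : Z, a ^ p = 1)
    (W X M : Subgroup G) (hWX : W ≤ X) (hXN : X ≤ Subgroup.normalizer (W : Set G))
    (q₁ : G ⧸ H) (hMX : M ≤ X)
    (hK : ∀ g ∈ X, g • q₁ = q₁ → g ∈ M)
    (hnorm : ∀ g ∈ X, ∀ m ∈ M, g⁻¹ * m * g ∈ M)
    (hpow : ∀ g ∈ X, g ^ p ∈ M)
    (hgen : ∀ y ∈ X, y ∉ M → ∀ g ∈ X, ∃ a : ℤ, ∃ m ∈ M, g = m * y ^ a)
    (x z : G) (hxM : x ∈ M) (hzW : z ∈ W) (hzM : z ∉ M)
    (hcon : ∀ W₀ : Subgroup ↥W, IsCoatom W₀ →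
      (fun y : G => y⁻¹ * z⁻¹ * y * z)^[p - 1] x ∈ W₀.map W.subtype →
      (fun y : G => y⁻¹ * z⁻¹ * y * z)^[p - 1] x ∈
        ((frattini ↥W₀).map W₀.subtype).map W.subtype) :
    ∏ r ∈ orb X q₁, tc H Λ x r = 1 := by
  have hp : p.Prime := Fact.out
  have hzX : z ∈ X := hWX hzW
  have hinvM : ∀ m ∈ M, ∀ q ∈ orb M q₁, m • q ∈ orb M q₁ :=
    fun m hm q hq => smul_mem_orb hm hq
  obtain ⟨θ, hθ⟩ : ∃ θ : G → Z, ∀ g, θ g = ∏ q ∈ orb M q₁, tc H Λ g q := ⟨_, fun _ => rfl⟩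
  have hθmul : ∀ a ∈ M, ∀ b ∈ M, θ (a * b) = θ a * θ b := by
    intro a ha b hb
    rw [hθ, hθ, hθ]
    exact th_mul Λ hΛ _ a b (hinvM a ha) (hinvM a⁻¹ (M.inv_mem ha))
  have hzn : ∀ w ∈ M, z⁻¹ * w * z ∈ M := fun w hw => hnorm z hzX w hw
  have hstep : ∏ r ∈ orb X q₁, tc H Λ x r = ∏ j ∈ Finset.range p, θ (HW.cz z j x) := by
    rw [prod_orb_translates hp X M q₁ z hMX hzX hzM hK hnorm hpow hgen]
    refine Finset.prod_congr rfl (fun j _ => ?_)
    rw [hθ]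
    have hmem : (z ^ j)⁻¹ * x * z ^ j ∈ M := hnorm _ (X.pow_mem hzX j) x hxM
    exact th_conj Λ hΛ h1 _ x (z ^ j) (hinvM _ hmem) (hinvM _ (M.inv_mem hmem))
  rw [hstep, HW.power_sum M z hzn θ hθmul p x hxM]
  have hdzM : ∀ y ∈ M, HW.dz z y ∈ M := by
    intro y hy
    have e : HW.dz z y = y⁻¹ * (z⁻¹ * y * z) := by unfold HW.dz; group
    rw [e]; exact M.mul_mem (M.inv_mem hy) (hzn _ hy)
  have hiter : ∀ i : ℕ, (HW.dz z)^[i] x ∈ M := by
    intro i
    induction i with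
    | zero => exact hxM
    | succ i ih =>
      rw [Function.iterate_succ_apply']
      exact hdzM _ ih
  rw [Finset.prod_eq_single (p - 1)]
  · rw [show p - 1 + 1 = p by have := hp.pos; omega, Nat.choose_self, pow_one]
    obtain ⟨c, hc⟩ : ∃ c, c = (HW.dz z)^[p - 1] x := ⟨_, rfl⟩
    rw [← hc]
    have hcM : c ∈ M := by rw [hc]; exact hiter (p - 1)
    have hcW : c ∈ W := by
      have e : p - 1 = (p - 2) + 1 := by have := hp.two_le; omega
      rw [hc, e, Function.iterate_succ_apply']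
      obtain ⟨y', hy'⟩ : ∃ y', y' = (HW.dz z)^[p - 2] x := ⟨_, rfl⟩
      rw [← hy']
      have hy'M : y' ∈ M := by rw [hy']; exact hiter (p - 2)
      have e2 : HW.dz z y' = (y'⁻¹ * z⁻¹ * y') * z := rfl
      rw [e2]
      exact W.mul_mem (HW.conj_mem_of_mem_normalizer (hXN (hMX hy'M)) (W.inv_mem hzW)) hzW
    have hco : IsCoatom (M.subgroupOf W) := by
      constructor
      · intro h
        have h2 : (⟨z, hzW⟩ : W) ∈ M.subgroupOf W := by rw [h]; exact Subgroup.mem_top _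
        exact hzM (Subgroup.mem_subgroupOf.mp h2)
      · intro B hB
        obtain ⟨b, hbB, hbM⟩ := SetLike.exists_of_lt hB
        have hbM' : (b : G) ∉ M := fun h => hbM (Subgroup.mem_subgroupOf.mpr h)
        rw [eq_top_iff]
        intro w _
        obtain ⟨a, m, hm, hwe⟩ := hgen (b : G) (hWX b.2) hbM' (w : G) (hWX w.2)
        have hmW : m ∈ W := by
          have e3 : m = (w : G) * ((b : G) ^ a)⁻¹ := by rw [hwe]; group
          rw [e3]; exact W.mul_mem w.2 (W.inv_mem (W.zpow_mem b.2 a))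
        have hm' : (⟨m, hmW⟩ : W) ∈ B := hB.le (Subgroup.mem_subgroupOf.mpr hm)
        have hw' : w = ⟨m, hmW⟩ * b ^ a := Subtype.ext (by simpa using hwe)
        rw [hw']; exact B.mul_mem hm' (B.zpow_mem hbB a)
    have hcW₀ : c ∈ (M.subgroupOf W).map W.subtype :=
      ⟨⟨c, hcW⟩, Subgroup.mem_subgroupOf.mpr hcM, rfl⟩
    have hfr : c ∈ ((frattini ↥(M.subgroupOf W)).map (M.subgroupOf W).subtype).map
        W.subtype := by
      rw [hc] at hcW₀ ⊢
      exact hcon _ hco hcW₀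
    obtain ⟨w₁, ⟨f, hf, rfl⟩, hw₁⟩ := hfr
    obtain ⟨τ, hτ⟩ : ∃ τ : ↥(M.subgroupOf W) →* Z, ∀ w, τ w = θ ((w : W) : G) := by
      refine ⟨MonoidHom.mk' (fun w => θ ((w : W) : G)) ?_, fun w => rfl⟩
      intro a b
      exact hθmul _ (Subgroup.mem_subgroupOf.mp a.2) _ (Subgroup.mem_subgroupOf.mp b.2)
    have hker := Cfsg.Agent.Lib.Helper87.frattini_le_ker_of_exponent (p := p) τ
      (fun g => hexp _) hf
    rw [MonoidHom.mem_ker, hτ] at hker
    rw [← hw₁]; exact hker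
  · intro i hi hne
    rw [Finset.mem_range] at hi
    obtain ⟨c, hc⟩ := hp.dvd_choose_self (Nat.succ_ne_zero i) (by omega)
    rw [hc, pow_mul, hexp, one_pow]
  · intro h; exact absurd (Finset.mem_range.mpr (by have := hp.pos; omega)) h

/-- the transfer into `N_G(W)` followed by `ζ` restricts to `ζ` on the Sylow subgroup -/
theorem transfer_eq_on_sylow {G : Type*} [Group G] [Finite G] {p : ℕ} [Fact p.Prime]
    (S : Sylow p G) (W : Subgroup G) (hW : Cfsg.IsWeaklyClosed W (S : Subgroup G))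
    (hcon : ∀ x ∈ (S : Subgroup G), ∀ z ∈ W, ∀ W₀ : Subgroup ↥W, IsCoatom W₀ →
      (fun y : G => y⁻¹ * z⁻¹ * y * z)^[p - 1] x ∈ W₀.map W.subtype →
      (fun y : G => y⁻¹ * z⁻¹ * y * z)^[p - 1] x ∈
        ((frattini ↥W₀).map W₀.subtype).map W.subtype)
    (H : Subgroup G) (hH : H = Subgroup.normalizer (W : Set G))
    {Z : Type*} [CommGroup Z] (hexp : ∀ a : Z, a ^ p = 1) (ζ : H →* Z) (Λ : G → Z)
    (hΛ : ∀ g (h : g ∈ H), Λ g = ζ ⟨g, h⟩) :
    ∀ (k : ℕ), ∀ x ∈ (S : Subgroup G), x ^ p ^ k = 1 → MonoidHom.transfer ζ x = Λ x := by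
  have hp : p.Prime := Fact.out
  letI : Fintype (G ⧸ H) := Fintype.ofFinite _
  have hSH : (S : Subgroup G) ≤ H := by rw [hH]; exact HW.le_normalizer_of_wc hW
  have hΛmul : ∀ a ∈ H, ∀ b ∈ H, Λ (a * b) = Λ a * Λ b := by
    intro a ha b hb
    rw [hΛ a ha, hΛ b hb, hΛ (a * b) (H.mul_mem ha hb), ← map_mul]; rfl
  have hΛ1 : Λ 1 = 1 := by rw [hΛ 1 H.one_mem]; exact map_one ζ
  intro k
  induction k with
  | zero =>
    intro x _ hx
    rw [pow_zero, pow_one] at hx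
    rw [hx, map_one, hΛ1]
  | succ k ih =>
    intro x hxS hx
    have hdag := dagger S H hSH hexp ζ Λ hΛmul hΛ1 k ih x hx
    rw [transfer_eq ζ Λ hΛ x]
    obtain ⟨X, hXdef⟩ : ∃ X : Subgroup G, X = W ⊔ Subgroup.zpowers x := ⟨_, rfl⟩
    have hWX : W ≤ X := by rw [hXdef]; exact le_sup_left
    have hxX : x ∈ X := by rw [hXdef]; exact Subgroup.mem_sup_right (Subgroup.mem_zpowers x)
    have hXS : X ≤ (S : Subgroup G) := by
      rw [hXdef]; exact sup_le hW.1 (by rw [Subgroup.zpowers_le]; exact hxS)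
    have hXH : X ≤ H := hXS.trans hSH
    have hXN : X ≤ Subgroup.normalizer (W : Set G) := by rw [← hH]; exact hXH
    have hXp : IsPGroup p X := S.2.to_le hXS
    obtain ⟨q₀, hq₀⟩ : ∃ q₀ : G ⧸ H, q₀ = QuotientGroup.mk 1 := ⟨_, rfl⟩
    have hfix₀ : ∀ g ∈ H, g • q₀ = q₀ := by
      intro g hg
      rw [hq₀]
      show (QuotientGroup.mk (g * 1) : G ⧸ H) = QuotientGroup.mk 1
      rw [QuotientGroup.eq]
      simpa using H.inv_mem hg
    have hout₀ : q₀.out ∈ H := by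
      have h2 : (QuotientGroup.mk q₀.out : G ⧸ H) = QuotientGroup.mk 1 := by
        rw [QuotientGroup.out_eq', hq₀]
      rw [QuotientGroup.eq, mul_one] at h2
      have h3 := H.inv_mem h2
      rwa [inv_inv] at h3
    rw [← Finset.mul_prod_erase Finset.univ _ (Finset.mem_univ q₀)]
    have hterm : tc H Λ x q₀ = Λ x := by
      rw [tc_fixed Λ x q₀ (hfix₀ x (hSH hxS))]
      exact lam_conj Λ hΛmul hΛ1 hout₀ (hSH hxS)
    rw [hterm]
    have hrest : ∏ q ∈ Finset.univ.erase q₀, tc H Λ x q = 1 := by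
      refine prod_eq_one_of_orbits X _ _ _ rfl ?_ ?_
      · intro g hg q hq
        rw [Finset.mem_erase] at hq ⊢
        refine ⟨fun h => hq.1 ?_, Finset.mem_univ _⟩
        have h2 : g⁻¹ • (g • q) = g⁻¹ • q₀ := by rw [h]
        rw [inv_smul_smul, hfix₀ _ (H.inv_mem (hXH hg))] at h2
        exact h2
      · intro q hq
        have hqne : q ≠ q₀ := (Finset.mem_erase.mp hq).1
        have hnf : ∃ w ∈ W, w • q ≠ q := by
          by_contra hcon'
          push Not at hcon'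
          exact hqne (by rw [hq₀]; exact fixed_eq S W hW H hH q hcon')
        obtain ⟨w₀, hw₀W, hw₀⟩ := hnf
        obtain ⟨M, hKM, hMX, ⟨g₁, hg₁X, hg₁M⟩, hnorm, hpow, hgen⟩ :=
          exists_maximal X (X ⊓ MulAction.stabilizer G q) hXp inf_le_left
            ⟨w₀, hWX hw₀W, fun h => hw₀ (MulAction.mem_stabilizer_iff.mp h.2)⟩
        have hK : ∀ g ∈ X, g • q = q → g ∈ M :=
          fun g hg hfix => hKM ⟨hg, MulAction.mem_stabilizer_iff.mpr hfix⟩
        by_cases hxM : x ∈ M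
        · have hz : ∃ z ∈ W, z ∉ M := by
            by_contra hcon'
            push Not at hcon'
            apply hg₁M
            have h2 : X ≤ M := by
              rw [hXdef]; exact sup_le hcon' (by rw [Subgroup.zpowers_le]; exact hxM)
            exact h2 hg₁X
          obtain ⟨z, hzW, hzM⟩ := hz
          exact caseB Λ hΛmul hΛ1 hexp W X M hWX hXN q hMX hK hnorm hpow hgen x z hxM hzW hzM
            (hcon x hxS z hzW)
        · apply caseA hp Λ hΛmul hΛ1 k x hx hdag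
          · intro y hy r hr
            exact smul_mem_orb ((Subgroup.zpowers_le.mpr hxX) hy) hr
          · intro r hr hfix
            obtain ⟨g, hg, rfl⟩ := mem_orb.mp hr
            have h2 : (g⁻¹ * x * g) • q = q := by
              rw [mul_smul, mul_smul, hfix, inv_smul_smul]
            have h3 := hK _ (X.mul_mem (X.mul_mem (X.inv_mem hg) hxX) hg) h2
            have h4 := hnorm g⁻¹ (X.inv_mem hg) _ h3
            apply hxM
            have e : g⁻¹⁻¹ * (g⁻¹ * x * g) * g⁻¹ = x := by group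
            rwa [e] at h4
    rw [hrest, mul_one]

universe u

/-- Under the Yoshida hypothesis, homomorphisms from `N_G(W)` to a group of order `p` extend
to `G`. -/
theorem exists_extension_prime' {G : Type u} [Group G] [Finite G] {p : ℕ} [Fact p.Prime]
    (S : Sylow p G) (W : Subgroup G) (hW : Cfsg.IsWeaklyClosed W (S : Subgroup G))
    (hcon : ∀ x ∈ (S : Subgroup G), ∀ z ∈ W, ∀ W₀ : Subgroup ↥W, IsCoatom W₀ →
      (fun y : G => y⁻¹ * z⁻¹ * y * z)^[p - 1] x ∈ W₀.map W.subtype →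
      (fun y : G => y⁻¹ * z⁻¹ * y * z)^[p - 1] x ∈
        ((frattini ↥W₀).map W₀.subtype).map W.subtype)
    (Z : Type*) [Group Z] (hZ : Nat.card Z = p) (ζ : Subgroup.normalizer (W : Set G) →* Z) :
    ∃ ζ' : G →* Z, ∀ x : Subgroup.normalizer (W : Set G), ζ' x = ζ x := by
  have hp : p.Prime := Fact.out
  haveI : Finite Z := Nat.finite_of_card_ne_zero (by rw [hZ]; exact hp.ne_zero)
  haveI : IsCyclic Z := isCyclic_of_prime_card hZ
  letI : CommGroup Z := IsCyclic.commGroup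
  have hexp : ∀ a : Z, a ^ p = 1 := fun a => by rw [← hZ]; exact pow_card_eq_one'
  have hZp : IsPGroup p Z := IsPGroup.of_card (n := 1) (by rw [hZ, pow_one])
  have hPN : (S : Subgroup G) ≤ Subgroup.normalizer (W : Set G) := HW.le_normalizer_of_wc hW
  obtain ⟨Λ, hΛ⟩ : ∃ Λ : G → Z, ∀ x, Λ x =
      if hx : x ∈ Subgroup.normalizer (W : Set G) then ζ ⟨x, hx⟩ else 1 := ⟨_, fun _ => rfl⟩
  have hΛN : ∀ x (hx : x ∈ Subgroup.normalizer (W : Set G)), Λ x = ζ ⟨x, hx⟩ :=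
    fun x hx => by rw [hΛ, dif_pos hx]
  have hT := transfer_eq_on_sylow S W hW hcon _ rfl hexp ζ Λ hΛN
  refine ⟨MonoidHom.transfer ζ, ?_⟩
  haveI := Cfsg.Agent.Lib.Helper2.pResidual_normal (G := Subgroup.normalizer (W : Set G)) p
  have htop := Cfsg.Agent.Lib.Helper2.sylow_sup_eq_top (S.subtype hPN)
    (Cfsg.pResidual p (Subgroup.normalizer (W : Set G))) le_rfl
  have hle : (⊤ : Subgroup (Subgroup.normalizer (W : Set G))) ≤
      MonoidHom.eqLocus ((MonoidHom.transfer ζ).comp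
        (Subgroup.normalizer (W : Set G)).subtype) ζ := by
    rw [← htop]
    apply sup_le
    · intro y hy
      rw [Sylow.coe_subtype, Subgroup.mem_subgroupOf] at hy
      show MonoidHom.transfer ζ (y : G) = ζ y
      obtain ⟨k, hk⟩ := S.2 ⟨(y : G), hy⟩
      have hk' : (y : G) ^ p ^ k = 1 := by simpa using congrArg Subtype.val hk
      rw [hT k _ hy hk', hΛN _ y.2]
    · intro y hy
      have h1 := Cfsg.Agent.Lib.Helper2.pResidual_le_ker p
        ((MonoidHom.transfer ζ).comp (Subgroup.normalizer (W : Set G)).subtype) hZp hy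
      have h2 := Cfsg.Agent.Lib.Helper2.pResidual_le_ker p ζ hZp hy
      rw [MonoidHom.mem_ker] at h1 h2
      show ((MonoidHom.transfer ζ).comp (Subgroup.normalizer (W : Set G)).subtype) y = ζ y
      rw [h1, h2]
  intro x
  exact hle (Subgroup.mem_top x)

/-- **Yoshida's transfer theorem** (weakly closed, iterated commutator form): under the
hypothesis `hcon`, the focal subgroup `S ∩ G'` lies in `N_G(W)'`. -/
theorem yoshida_wc {G : Type u} [Group G] [Finite G] {p : ℕ} [Fact p.Prime]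
    (S : Sylow p G) (W : Subgroup G) (hW : Cfsg.IsWeaklyClosed W (S : Subgroup G))
    (hcon : ∀ x ∈ (S : Subgroup G), ∀ z ∈ W, ∀ W₀ : Subgroup ↥W, IsCoatom W₀ →
      (fun y : G => y⁻¹ * z⁻¹ * y * z)^[p - 1] x ∈ W₀.map W.subtype →
      (fun y : G => y⁻¹ * z⁻¹ * y * z)^[p - 1] x ∈
        ((frattini ↥W₀).map W₀.subtype).map W.subtype) :
    (S : Subgroup G) ⊓ commutator G ≤
      ⁅Subgroup.normalizer (W : Set G), Subgroup.normalizer (W : Set G)⁆ := by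
  have hp : p.Prime := Fact.out
  intro u hu
  obtain ⟨huS, huG⟩ := Subgroup.mem_inf.mp hu
  by_contra hu'
  obtain ⟨N, hN⟩ : ∃ N : Subgroup G, N = Subgroup.normalizer (W : Set G) := ⟨_, rfl⟩
  have hSN : (S : Subgroup G) ≤ N := by rw [hN]; exact HW.le_normalizer_of_wc hW
  have hidx : ¬ p ∣ N.index := fun hd => S.not_dvd_index (hd.trans (Subgroup.index_dvd_of_le hSN))
  have hE : ∀ (Z : Type u) [Group Z], Nat.card Z = p → ∀ ζ : N →* Z,
      ∃ ζ' : G →* Z, ∀ x : N, ζ' x = ζ x := by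
    subst hN
    intro Z _ hZ ζ
    exact exists_extension_prime' S W hW hcon Z hZ ζ
  rw [← hN] at hu'
  have hcard : Nat.card (Abelianization N) ≠ 0 := Nat.card_pos.ne'
  obtain ⟨k, m, hm, hkm⟩ := Nat.exists_eq_pow_mul_and_not_dvd hcard p hp.ne_one
  obtain ⟨T, hT⟩ : ∃ T : Subgroup (Abelianization N),
      T = (powMonoidHom m : Abelianization N →* Abelianization N).range := ⟨_, rfl⟩
  have hTp : IsPGroup p T := by
    rintro ⟨t, ht⟩
    rw [hT] at ht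
    obtain ⟨b, rfl⟩ := ht
    refine ⟨k, Subtype.ext ?_⟩
    show (powMonoidHom m b) ^ p ^ k = 1
    rw [powMonoidHom_apply, ← pow_mul, mul_comm, ← hkm, pow_card_eq_one']
  obtain ⟨φ, hφ⟩ : ∃ φ : N →* T, ∀ x : N, (φ x : Abelianization N) = Abelianization.of x ^ m := by
    subst hT
    exact ⟨(powMonoidHom m : Abelianization N →* Abelianization N).rangeRestrict.comp
      Abelianization.of, fun x => rfl⟩
  obtain ⟨ψ, hψ⟩ := HW.exists_extension N hidx hE _ T hTp rfl φ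
  have hψu : ψ u = 1 := by
    have h1 := Abelianization.commutator_subset_ker ψ huG
    exact MonoidHom.mem_ker.mp h1
  have h2 := hψ ⟨u, hSN huS⟩
  have h3 : ψ u = φ ⟨u, hSN huS⟩ := h2
  rw [hψu] at h3
  have h4 : Abelianization.of (⟨u, hSN huS⟩ : N) ^ m = 1 := by
    rw [← hφ, ← h3]; rfl
  obtain ⟨j, hj⟩ := S.2 ⟨u, huS⟩
  have hj' : u ^ p ^ j = 1 := by simpa using congrArg Subtype.val hj
  have h5 : Abelianization.of (⟨u, hSN huS⟩ : N) ^ p ^ j = 1 := by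
    rw [← map_pow]
    have e : (⟨u, hSN huS⟩ : N) ^ p ^ j = 1 := Subtype.ext (by simpa using hj')
    rw [e, map_one]
  have h6 : orderOf (Abelianization.of (⟨u, hSN huS⟩ : N)) = 1 := by
    have d1 := orderOf_dvd_of_pow_eq_one h4
    have d2 := orderOf_dvd_of_pow_eq_one h5
    have hcop : Nat.Coprime m (p ^ j) :=
      Nat.Coprime.pow_right j ((Nat.Prime.coprime_iff_not_dvd hp).mpr hm).symm
    have d3 := Nat.dvd_gcd d1 d2
    rw [hcop] at d3
    exact Nat.dvd_one.mp d3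
  rw [orderOf_eq_one_iff] at h6
  have h7 : (⟨u, hSN huS⟩ : N) ∈ commutator N := by
    rw [← Abelianization.ker_of, MonoidHom.mem_ker]; exact h6
  apply hu'
  rw [← Subgroup.map_subtype_commutator]
  exact ⟨⟨u, hSN huS⟩, h7, rfl⟩

end Main

end Cfsg.Agent.Lib.Helper10.Yoshida
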