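import Mathlib
import Cfsg.Agent.Lib.Helper10.Yoshida
import Cfsg.Agent.Lib.Helper2.FrattiniP

/-!
# Yoshida's argument for an abstract transfer cocycle

A finite `p`-group `G` acts on a finite set `R`; `U : G → R → A` is a cocycle
(`U (g * g') q = U g q * U g' (g⁻¹ • q)`) with values in a commutative group.  If the values of
`U` at fixed points have order dividing `p`, are trivial at points fixed by all of `G`, and
`G` satisfies the commutator condition of Yoshida's theorem, then `∏ q, U x q = 1` as soon as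
the fixed-point values of the powers `x ^ n`, `p ∣ n`, are trivial (`prod_univ_eq_one`).
This is the orbit-by-orbit evaluation of a transfer, abstracted from `Yoshida.lean`, for use
with bisets of fusion systems.
-/

set_option autoImplicit false
set_option linter.unusedSectionVars false
set_option linter.style.haveILetI false

namespace Cfsg.Agent.Lib.Helper10.Cocycle

open scoped Classical
open Cfsg.Agent.Lib.Helper70
open Cfsg.Agent.Lib.Helper10.Yoshida (mem_of_pow_mem)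

section Calc

variable {G : Type*} [Group G] {R : Type*} [MulAction G R] {A : Type*} [CommGroup A]
  {Z : Type*} [CommGroup Z]

/-- the cocycle condition -/
def IsCocycle (U : G → R → A) : Prop :=
  ∀ (g g' : G) (q : R), U (g * g') q = U g q * U g' (g⁻¹ • q)

theorem IsCocycle.one {U : G → R → A} (hU : IsCocycle U) (q : R) : U 1 q = 1 := by
  have h := hU 1 1 q
  rw [mul_one, inv_one, one_smul] at h
  exact mul_eq_left.mp h.symm

theorem IsCocycle.pow {U : G → R → A} (hU : IsCocycle U) (y : G) (n : ℕ) (q : R) :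
    U (y ^ n) q = ∏ j ∈ Finset.range n, U y ((y⁻¹) ^ j • q) := by
  induction n with
  | zero => simp [hU.one]
  | succ n ih => rw [pow_succ, hU, ih, Finset.prod_range_succ, inv_pow]

theorem IsCocycle.ppow {U : G → R → A} (hU : IsCocycle U) (n : ℕ) :
    IsCocycle (fun g q => U g q ^ n) := by
  intro g g' q
  show U (g * g') q ^ n = U g q ^ n * U g' (g⁻¹ • q) ^ n
  rw [hU, mul_pow]

theorem prod_smul_eq (O : Finset (R)) (m : G) (hm : ∀ q ∈ O, m • q ∈ O)
    (hm' : ∀ q ∈ O, m⁻¹ • q ∈ O) (f : R → Z) :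
    ∏ q ∈ O, f (m • q) = ∏ q ∈ O, f q := by
  refine Finset.prod_bij' (fun q _ => m • q) (fun q _ => m⁻¹ • q) hm hm' ?_ ?_ ?_
  · intro q _; simp
  · intro q _; simp
  · intro q _; rfl

theorem th_mul {U : G → R → A} (hU : IsCocycle U)
    (O : Finset R) (m m' : G) (hm : ∀ q ∈ O, m • q ∈ O) (hm' : ∀ q ∈ O, m⁻¹ • q ∈ O) :
    ∏ q ∈ O, U (m * m') q = (∏ q ∈ O, U m q) * ∏ q ∈ O, U m' q := by
  rw [← prod_smul_eq O m⁻¹ hm' (by simpa using hm) (fun q => U m' q),
    ← Finset.prod_mul_distrib]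
  exact Finset.prod_congr rfl (fun q _ => hU m m' q)

theorem th_conj {U : G → R → A} (hU : IsCocycle U)
    (O : Finset R) (x z : G) (hx : ∀ q ∈ O, (z⁻¹ * x * z) • q ∈ O)
    (hx' : ∀ q ∈ O, (z⁻¹ * x * z)⁻¹ • q ∈ O) :
    ∏ q ∈ O, U x (z • q) = ∏ q ∈ O, U (z⁻¹ * x * z) q := by
  have hpt : ∀ q, U (z⁻¹ * x * z) q * U z (z • q)
      = U x (z • q) * U z (z • (z⁻¹ * x * z)⁻¹ • q) := by
    intro q
    have e1 := hU (z⁻¹ * x) z q
    have e2 := hU z⁻¹ x q
    have e3 := hU z⁻¹ z q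
    rw [inv_mul_cancel, hU.one] at e3
    rw [inv_inv] at e2 e3
    have e4 : (z⁻¹ * x)⁻¹ • q = z • (z⁻¹ * x * z)⁻¹ • q := by
      rw [smul_smul]; congr 1; group
    rw [e1, e2, e4]
    calc U z⁻¹ q * U x (z • q) * U z (z • (z⁻¹ * x * z)⁻¹ • q)
          * U z (z • q)
        = (U z⁻¹ q * U z (z • q)) *
          (U x (z • q) * U z (z • (z⁻¹ * x * z)⁻¹ • q)) := by
          simp only [mul_assoc, mul_comm, mul_left_comm]
      _ = _ := by rw [← e3, one_mul]
  have h2 : ∏ q ∈ O, U z (z • (z⁻¹ * x * z)⁻¹ • q) = ∏ q ∈ O, U z (z • q) :=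
    prod_smul_eq O (z⁻¹ * x * z)⁻¹ hx' (by simpa using hx) (fun q => U z (z • q))
  have h3 : (∏ q ∈ O, U (z⁻¹ * x * z) q) * ∏ q ∈ O, U z (z • q)
      = (∏ q ∈ O, U x (z • q)) * ∏ q ∈ O, U z (z • q) := by
    calc (∏ q ∈ O, U (z⁻¹ * x * z) q) * ∏ q ∈ O, U z (z • q)
        = ∏ q ∈ O, (U (z⁻¹ * x * z) q * U z (z • q)) :=
          Finset.prod_mul_distrib.symm
      _ = ∏ q ∈ O, (U x (z • q) * U z (z • (z⁻¹ * x * z)⁻¹ • q)) :=
          Finset.prod_congr rfl (fun q _ => hpt q)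
      _ = (∏ q ∈ O, U x (z • q)) * ∏ q ∈ O, U z (z • (z⁻¹ * x * z)⁻¹ • q) :=
          Finset.prod_mul_distrib
      _ = _ := by rw [h2]
  exact (mul_right_cancel h3).symm

end Calc

section Orbits

variable {G : Type*} [Group G] {R : Type*} [MulAction G R] [Fintype R] {Z : Type*} [CommGroup Z]

/-- the orbit of `q` under the subgroup `Y`, as a finset -/
noncomputable def orb (Y : Subgroup G) (q : R) : Finset (R) :=
  Finset.univ.filter (fun r => ∃ y ∈ Y, y • q = r)

theorem mem_orb {Y : Subgroup G} {q r : R} : r ∈ orb Y q ↔ ∃ y ∈ Y, y • q = r := by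
  simp [orb]

theorem self_mem_orb (Y : Subgroup G) (q : R) : q ∈ orb Y q :=
  mem_orb.mpr ⟨1, Y.one_mem, one_smul _ _⟩

theorem smul_mem_orb {Y : Subgroup G} {q r : R} {y : G} (hy : y ∈ Y) (hr : r ∈ orb Y q) :
    y • r ∈ orb Y q := by
  obtain ⟨y', hy', rfl⟩ := mem_orb.mp hr
  exact mem_orb.mpr ⟨y * y', Y.mul_mem hy hy', mul_smul _ _ _⟩

/-- a product over an invariant set all of whose orbit products are trivial is trivial -/
theorem prod_eq_one_of_orbits (Y : Subgroup G) (f : R → Z) :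
    ∀ (n : ℕ) (O : Finset (R)), O.card = n → (∀ y ∈ Y, ∀ q ∈ O, y • q ∈ O) →
      (∀ q ∈ O, ∏ r ∈ orb Y q, f r = 1) → ∏ q ∈ O, f q = 1 := by
  intro n
  induction n using Nat.strong_induction_on with
  | _ n ih =>
    intro O hn hinv hO
    rcases Finset.eq_empty_or_nonempty O with h0 | ⟨q, hq⟩
    · rw [h0]; simp
    have hsub : orb Y q ⊆ O := by
      intro r hr
      obtain ⟨y, hy, rfl⟩ := mem_orb.mp hr
      exact hinv y hy q hq
    rw [← Finset.prod_sdiff hsub, hO q hq, mul_one]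
    have hcard : (O \ orb Y q).card < n := by
      rw [← hn]
      apply Finset.card_lt_card
      refine ⟨Finset.sdiff_subset, fun h => ?_⟩
      have := h hq
      rw [Finset.mem_sdiff] at this
      exact this.2 (self_mem_orb Y q)
    refine ih _ hcard (O \ orb Y q) rfl ?_ ?_
    · intro y hy r hr
      rw [Finset.mem_sdiff] at hr ⊢
      refine ⟨hinv y hy r hr.1, fun h => hr.2 ?_⟩
      have := smul_mem_orb (Y.inv_mem hy) h
      rwa [inv_smul_smul] at this
    · intro r hr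
      exact hO r (Finset.mem_sdiff.mp hr).1

/-- the product over a cycle of `y` -/
theorem cycle_prod [Finite G] (y : G) (q : R) (f : R → Z) :
    ∃ n : ℕ, 0 < n ∧ y ^ n • q = q ∧ (n = 1 → y • q = q) ∧ (∀ N : ℕ, y ^ N = 1 → n ∣ N) ∧
      ∏ r ∈ orb (Subgroup.zpowers y) q, f r = ∏ j ∈ Finset.range n, f ((y⁻¹) ^ j • q) := by
  obtain ⟨n, hn⟩ : ∃ n, n = MulAction.period y⁻¹ q := ⟨_, rfl⟩
  have hpos : 0 < n := by
    rw [hn]; exact MulAction.period_pos_of_orderOf_pos (orderOf_pos y⁻¹) q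
  have hper : (y⁻¹) ^ n • q = q := by rw [hn]; exact MulAction.pow_period_smul y⁻¹ q
  have hdvd : ∀ N : ℕ, (y⁻¹) ^ N • q = q → n ∣ N := by
    intro N hN
    rw [hn]; exact MulAction.pow_smul_eq_iff_period_dvd.mp hN
  refine ⟨n, hpos, ?_, ?_, ?_, ?_⟩
  · rw [inv_pow, inv_smul_eq_iff] at hper
    exact hper.symm
  · intro h1
    rw [h1, pow_one, inv_smul_eq_iff] at hper
    exact hper.symm
  · intro N hN
    apply hdvd
    rw [inv_pow, hN, inv_one, one_smul]
  · have himg : orb (Subgroup.zpowers y) q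
        = (Finset.range n).image (fun j => (y⁻¹) ^ j • q) := by
      ext r
      rw [mem_orb, Finset.mem_image]
      constructor
      · rintro ⟨g, hg, rfl⟩
        obtain ⟨i, rfl⟩ := Subgroup.mem_zpowers_iff.mp hg
        have h1 : (y⁻¹) ^ ((-i) % (n : ℤ)) • q = (y⁻¹) ^ (-i) • q := by
          rw [hn]; exact MulAction.zpow_mod_period_smul (-i)
        have hnz : (n : ℤ) ≠ 0 := by exact_mod_cast hpos.ne'
        have h2 : 0 ≤ (-i) % (n : ℤ) := Int.emod_nonneg _ hnz
        have h3 : (-i) % (n : ℤ) < n := Int.emod_lt_of_pos _ (by exact_mod_cast hpos)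
        refine ⟨((-i) % (n : ℤ)).toNat, ?_, ?_⟩
        · rw [Finset.mem_range]; omega
        · show (y⁻¹) ^ ((-i) % (n : ℤ)).toNat • q = y ^ i • q
          rw [← zpow_natCast, Int.toNat_of_nonneg h2, h1, inv_zpow, zpow_neg, inv_inv]
      · rintro ⟨j, -, rfl⟩
        refine ⟨(y⁻¹) ^ j, ?_, rfl⟩
        rw [inv_pow]
        exact Subgroup.inv_mem _ (Subgroup.pow_mem _ (Subgroup.mem_zpowers y) j)
    have hinj : ∀ i ∈ Finset.range n, ∀ j ∈ Finset.range n,
        (y⁻¹) ^ i • q = (y⁻¹) ^ j • q → i = j := by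
      have key : ∀ i j : ℕ, i ≤ j → j < n → (y⁻¹) ^ i • q = (y⁻¹) ^ j • q → i = j := by
        intro i j hij hj h
        have e : j = i + (j - i) := by omega
        rw [e, pow_add, mul_smul] at h
        have h4 : (y⁻¹) ^ (j - i) • q = q := (smul_left_cancel _ h).symm
        have h5 := hdvd _ h4
        have h6 : j - i = 0 := Nat.eq_zero_of_dvd_of_lt h5 (by omega)
        omega
      intro i hi j hj h
      rw [Finset.mem_range] at hi hj
      rcases le_total i j with hij | hij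
      · exact key i j hij hj h
      · exact (key j i hij hi h.symm).symm
    rw [himg, Finset.prod_image hinj]


/-- an `X`-orbit is the disjoint union of `p` translates of an orbit of a maximal subgroup
containing the stabilizer -/
theorem prod_orb_translates {p : ℕ} (hp : p.Prime) (X M : Subgroup G) (q₁ : R) (z : G)
    (hMX : M ≤ X) (hzX : z ∈ X) (hzM : z ∉ M)
    (hK : ∀ g ∈ X, g • q₁ = q₁ → g ∈ M)
    (hnorm : ∀ g ∈ X, ∀ m ∈ M, g⁻¹ * m * g ∈ M)
    (hpow : ∀ g ∈ X, g ^ p ∈ M)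
    (hgen : ∀ y ∈ X, y ∉ M → ∀ g ∈ X, ∃ a : ℤ, ∃ m ∈ M, g = m * y ^ a)
    (f : R → Z) :
    ∏ r ∈ orb X q₁, f r = ∏ j ∈ Finset.range p, ∏ q ∈ orb M q₁, f (z ^ j • q) := by
  rw [← Finset.prod_product' (Finset.range p) (orb M q₁) (fun j q => f (z ^ j • q))]
  symm
  refine Finset.prod_bij (fun x _ => z ^ x.1 • x.2) ?_ ?_ ?_ ?_
  · rintro ⟨j, q⟩ hx
    rw [Finset.mem_product] at hx
    obtain ⟨m, hm, rfl⟩ := mem_orb.mp hx.2
    exact mem_orb.mpr ⟨z ^ j * m, X.mul_mem (X.pow_mem hzX j) (hMX hm), mul_smul _ _ _⟩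
  · rintro ⟨j, q⟩ hx ⟨j', q'⟩ hx' heq
    rw [Finset.mem_product, Finset.mem_range] at hx hx'
    obtain ⟨m, hm, rfl⟩ := mem_orb.mp hx.2
    obtain ⟨m', hm', rfl⟩ := mem_orb.mp hx'.2
    have heq' : z ^ j • m • q₁ = z ^ j' • m' • q₁ := heq
    have hfix : ((z ^ j' * m')⁻¹ * (z ^ j * m)) • q₁ = q₁ := by
      rw [mul_smul, mul_smul, heq', ← mul_smul (z ^ j') m', inv_smul_smul]
    have hmem := hK _ (X.mul_mem (X.inv_mem (X.mul_mem (X.pow_mem hzX j') (hMX hm')))
      (X.mul_mem (X.pow_mem hzX j) (hMX hm))) hfix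
    have hzz : (z ^ j')⁻¹ * z ^ j ∈ M := by
      have e : (z ^ j')⁻¹ * z ^ j = m' * ((z ^ j' * m')⁻¹ * (z ^ j * m)) * m⁻¹ := by group
      rw [e]; exact M.mul_mem (M.mul_mem hm' hmem) (M.inv_mem hm)
    have hjj : j = j' := by
      by_contra hne
      rcases Nat.lt_or_gt_of_ne hne with hlt | hgt
      · have e : (z ^ j')⁻¹ * z ^ j = (z ^ (j' - j))⁻¹ := by
          have e' : j' = (j' - j) + j := by omega
          conv_lhs => rw [e', pow_add]
          group
        rw [e] at hzz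
        exact hzM (mem_of_pow_mem hp M z (hpow z hzX) (j' - j) (by omega) (by omega)
          (by simpa using M.inv_mem hzz))
      · have e : (z ^ j')⁻¹ * z ^ j = z ^ (j - j') := by
          have e' : j = j' + (j - j') := by omega
          conv_lhs => rw [e', pow_add]
          group
        rw [e] at hzz
        exact hzM (mem_of_pow_mem hp M z (hpow z hzX) (j - j') (by omega) (by omega) hzz)
    subst hjj
    have h5 := smul_left_cancel _ heq'
    rw [Prod.mk.injEq]; exact ⟨rfl, h5⟩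
  · intro r hr
    obtain ⟨g, hg, rfl⟩ := mem_orb.mp hr
    obtain ⟨a, m, hm, rfl⟩ := hgen z hzX hzM g hg
    have hpz : (0 : ℤ) < p := by exact_mod_cast hp.pos
    obtain ⟨j, hj⟩ : ∃ j : ℕ, (j : ℤ) = a % p :=
      ⟨(a % p).toNat, Int.toNat_of_nonneg (Int.emod_nonneg _ hpz.ne')⟩
    have hjp : j < p := by
      have := Int.emod_lt_of_pos a hpz
      omega
    have hza : z ^ a = z ^ j * (z ^ p) ^ (a / p) := by
      rw [← zpow_natCast z j, hj, ← zpow_natCast z p, ← zpow_mul, ← zpow_add,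
        Int.emod_add_mul_ediv]
    refine ⟨(j, ((z ^ j)⁻¹ * m * z ^ j * (z ^ p) ^ (a / p)) • q₁), ?_, ?_⟩
    · rw [Finset.mem_product, Finset.mem_range]
      exact ⟨hjp, mem_orb.mpr ⟨_, M.mul_mem (hnorm _ (X.pow_mem hzX j) m hm)
        (M.zpow_mem (hpow z hzX) _), rfl⟩⟩
    · show z ^ j • ((z ^ j)⁻¹ * m * z ^ j * (z ^ p) ^ (a / p)) • q₁ = (m * z ^ a) • q₁
      rw [smul_smul, hza]; congr 1; group
  · rintro ⟨j, q⟩ _; rfl


end Orbits

section Main

variable {G : Type*} [Group G] [Finite G] {R : Type*} [MulAction G R] [Fintype R]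
  {A : Type*} [CommGroup A]

/-- a cocycle with trivial values at fixed points has trivial products over invariant sets -/
theorem prod_eq_one_of_fixtriv (V : G → R → A) (hV : IsCocycle V)
    (hfix : ∀ g q, g • q = q → V g q = 1) (g : G) (O : Finset R)
    (hinv : ∀ y ∈ Subgroup.zpowers g, ∀ q ∈ O, y • q ∈ O) : ∏ q ∈ O, V g q = 1 := by
  refine prod_eq_one_of_orbits (Subgroup.zpowers g) _ _ O rfl hinv ?_
  intro q hq
  obtain ⟨n, hpos, hfixn, hone, hdvd, hprod⟩ := cycle_prod g q (V g)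
  rw [hprod, ← hV.pow]
  exact hfix _ _ hfixn

theorem caseA {p : ℕ} (hp : p.Prime) (U : G → R → A) (hU : IsCocycle U) (k : ℕ)
    (x : G) (hx : x ^ p ^ (k + 1) = 1)
    (hval : ∀ (q : R) (n : ℕ), p ∣ n → x ^ n • q = q → U (x ^ n) q = 1)
    (O : Finset R) (hinv : ∀ y ∈ Subgroup.zpowers x, ∀ q ∈ O, y • q ∈ O)
    (hnofix : ∀ q ∈ O, x • q ≠ q) : ∏ q ∈ O, U x q = 1 := by
  refine prod_eq_one_of_orbits (Subgroup.zpowers x) _ _ O rfl hinv ?_
  intro q hq
  obtain ⟨n, hpos, hfix, hone, hdvd, hprod⟩ := cycle_prod x q (U x)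
  rw [hprod, ← hU.pow]
  apply hval _ _ _ hfix
  obtain ⟨i, -, hi⟩ := (Nat.dvd_prime_pow hp).mp (hdvd _ hx)
  rcases Nat.eq_zero_or_pos i with h0 | h0
  · rw [h0, pow_zero] at hi
    exact absurd (hone hi) (hnofix q hq)
  · rw [hi]; exact dvd_pow_self p h0.ne'

theorem caseB {p : ℕ} [Fact p.Prime] (hG : IsPGroup p G) (U : G → R → A) (hU : IsCocycle U)
    (hfixp : ∀ g q, g • q = q → U g q ^ p = 1)
    (M : Subgroup G) (hM : IsCoatom M) (q₁ : R) (hK : ∀ g, g • q₁ = q₁ → g ∈ M)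
    (x z : G) (hxM : x ∈ M) (hzM : z ∉ M)
    (hcon : (HW.dz z)^[p - 1] x ∈ M → (HW.dz z)^[p - 1] x ∈ (frattini ↥M).map M.subtype) :
    ∏ r ∈ orb (⊤ : Subgroup G) q₁, U x r = 1 := by
  have hp : p.Prime := Fact.out
  haveI hn : M.Normal := Cfsg.Agent.Lib.Helper2.coatom_normal hG hM
  have hinvM : ∀ m ∈ M, ∀ q ∈ orb M q₁, m • q ∈ orb M q₁ :=
    fun m hm q hq => smul_mem_orb hm hq
  obtain ⟨θ, hθ⟩ : ∃ θ : G → A, ∀ g, θ g = ∏ q ∈ orb M q₁, U g q := ⟨_, fun _ => rfl⟩
  have hθmul : ∀ a ∈ M, ∀ b ∈ M, θ (a * b) = θ a * θ b := by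
    intro a ha b hb
    rw [hθ, hθ, hθ]
    exact th_mul hU _ a b (hinvM a ha) (hinvM a⁻¹ (M.inv_mem ha))
  have hθp : ∀ a ∈ M, θ a ^ p = 1 := by
    intro a ha
    rw [hθ, ← Finset.prod_pow]
    refine prod_eq_one_of_fixtriv (fun g q => U g q ^ p) (hU.ppow p) hfixp a _ ?_
    intro y hy q hq
    exact hinvM y ((Subgroup.zpowers_le.mpr ha) hy) q hq
  have hnorm : ∀ g : G, ∀ m ∈ M, g⁻¹ * m * g ∈ M := by
    intro g m hm
    have h1 := hn.conj_mem m hm g⁻¹
    rwa [inv_inv] at h1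
  have hzn : ∀ w ∈ M, z⁻¹ * w * z ∈ M := fun w hw => hnorm z w hw
  have hstep : ∏ r ∈ orb (⊤ : Subgroup G) q₁, U x r = ∏ j ∈ Finset.range p, θ (HW.cz z j x) := by
    rw [prod_orb_translates hp (⊤ : Subgroup G) M q₁ z le_top (Subgroup.mem_top z) hzM (fun g _ h => hK g h)
      (fun g _ m hm => hnorm g m hm)
      (fun g _ => Cfsg.Agent.Lib.Helper87.pow_p_mem_coatom hG hM g)
      (fun y _ hy g _ => Cfsg.Agent.Lib.Helper87.coatom_quot_zpow hM hy g)]
    refine Finset.prod_congr rfl (fun j _ => ?_)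
    rw [hθ]
    have hmem : (z ^ j)⁻¹ * x * z ^ j ∈ M := hnorm _ x hxM
    exact th_conj hU _ x (z ^ j) (hinvM _ hmem) (hinvM _ (M.inv_mem hmem))
  rw [hstep, HW.power_sum M z hzn θ hθmul p x hxM]
  have hdzM : ∀ y ∈ M, HW.dz z y ∈ M := by
    intro y hy
    have e : HW.dz z y = y⁻¹ * (z⁻¹ * y * z) := by unfold HW.dz; group
    rw [e]; exact M.mul_mem (M.inv_mem hy) (hzn _ hy)
  have hiter : ∀ i : ℕ, (HW.dz z)^[i] x ∈ M := by
    intro i
    induction i with
    | zero => exact hxM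
    | succ i ih =>
      rw [Function.iterate_succ_apply']
      exact hdzM _ ih
  rw [Finset.prod_eq_single (p - 1)]
  · rw [show p - 1 + 1 = p by have := hp.pos; omega, Nat.choose_self, pow_one]
    obtain ⟨c, hc⟩ : ∃ c, c = (HW.dz z)^[p - 1] x := ⟨_, rfl⟩
    rw [← hc]
    have hcM : c ∈ M := by rw [hc]; exact hiter (p - 1)
    have hfr : c ∈ (frattini ↥M).map M.subtype := by
      rw [hc] at hcM ⊢
      exact hcon hcM
    obtain ⟨f, hf, hfc⟩ := hfr
    obtain ⟨τ, hτ⟩ : ∃ τ : ↥M →* A, ∀ w : M, τ w = θ (w : G) := by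
      refine ⟨MonoidHom.mk' (fun w : M => θ (w : G)) ?_, fun w => rfl⟩
      intro a b
      exact hθmul _ a.2 _ b.2
    have hker := Cfsg.Agent.Lib.Helper87.frattini_le_ker_of_exponent (p := p) τ
      (fun g => by rw [hτ]; exact hθp _ g.2) hf
    rw [MonoidHom.mem_ker, hτ] at hker
    rw [← hfc]; exact hker
  · intro i hi hne
    rw [Finset.mem_range] at hi
    obtain ⟨c, hc⟩ := hp.dvd_choose_self (Nat.succ_ne_zero i) (by omega)
    rw [hc, pow_mul, hθp _ (hiter i), one_pow]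
  · intro h; exact absurd (Finset.mem_range.mpr (by have := hp.pos; omega)) h

/-- **Yoshida's argument** for an abstract cocycle. -/
theorem prod_univ_eq_one {p : ℕ} [Fact p.Prime] (hG : IsPGroup p G) (U : G → R → A)
    (hU : IsCocycle U)
    (hfixp : ∀ g q, g • q = q → U g q ^ p = 1)
    (hfixall : ∀ q, (∀ g : G, g • q = q) → ∀ g, U g q = 1)
    (hcon : ∀ x z : G, ∀ M : Subgroup G, IsCoatom M → (HW.dz z)^[p - 1] x ∈ M →
      (HW.dz z)^[p - 1] x ∈ (frattini ↥M).map M.subtype)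
    (x : G)
    (hval : ∀ (q : R) (n : ℕ), p ∣ n → x ^ n • q = q → U (x ^ n) q = 1) :
    ∏ q : R, U x q = 1 := by
  have hp : p.Prime := Fact.out
  obtain ⟨k, hk⟩ := hG x
  have hx : x ^ p ^ (k + 1) = 1 := by rw [pow_succ, pow_mul, hk, one_pow]
  refine prod_eq_one_of_orbits (⊤ : Subgroup G) _ _ Finset.univ rfl (fun _ _ _ _ => Finset.mem_univ _) ?_
  intro q _
  by_cases hall : ∀ g : G, g • q = q
  · have h1 : orb (⊤ : Subgroup G) q = {q} := by
      ext r
      rw [mem_orb, Finset.mem_singleton]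
      constructor
      · rintro ⟨g, -, rfl⟩; exact hall g
      · rintro rfl; exact ⟨1, Subgroup.mem_top _, one_smul _ _⟩
    rw [h1, Finset.prod_singleton]
    exact hfixall q hall x
  · push Not at hall
    obtain ⟨g₀, hg₀⟩ := hall
    have hKne : MulAction.stabilizer G q ≠ ⊤ := by
      intro h
      have h1 : g₀ ∈ MulAction.stabilizer G q := by rw [h]; exact Subgroup.mem_top g₀
      exact hg₀ (MulAction.mem_stabilizer_iff.mp h1)
    obtain ⟨M, hM, hKM⟩ := (eq_top_or_exists_le_coatom _).resolve_left hKne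
    have hK : ∀ g, g • q = q → g ∈ M := fun g hg => hKM (MulAction.mem_stabilizer_iff.mpr hg)
    haveI hn : M.Normal := Cfsg.Agent.Lib.Helper2.coatom_normal hG hM
    by_cases hxM : x ∈ M
    · obtain ⟨z, hz⟩ : ∃ z, z ∉ M := by
        by_contra h
        push Not at h
        exact hM.1 (eq_top_iff.2 fun y _ => h y)
      exact caseB hG U hU hfixp M hM q hK x z hxM hz (hcon x z M hM)
    · apply caseA hp U hU k x hx hval
      · intro y _ r hr; exact smul_mem_orb (Subgroup.mem_top y) hr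
      · intro r hr hfix
        obtain ⟨g, -, rfl⟩ := mem_orb.mp hr
        have h2 : (g⁻¹ * x * g) • q = q := by
          rw [mul_smul, mul_smul, hfix, inv_smul_smul]
        have h3 := hK _ h2
        apply hxM
        have h4 := hn.conj_mem _ h3 g
        have e : g * (g⁻¹ * x * g) * g⁻¹ = x := by group
        rwa [e] at h4

end Main

end Cfsg.Agent.Lib.Helper10.Cocycle
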