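import Mathlib

set_option autoImplicit false

/-!
Group actions in which every nonidentity element fixes at most one point ("Frobenius-type"
actions): fixed points from congruences, without the Frobenius kernel.
-/

namespace Cfsg.Agent.Lib.Helper10

section FrobAction

variable (K X : Type*) [Group K] [MulAction K X]

/-- The points with trivial stabilizer form an invariant subset. -/
def freePart : SubMulAction K X where
  carrier := {ω | ∀ x : K, x • ω = ω → x = 1}
  smul_mem' := by
    intro g ω hω x hx
    have h1 : (g⁻¹ * x * g) • ω = ω := by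
      rw [mul_smul, mul_smul, hx, inv_smul_smul]
    have h2 := hω _ h1
    calc x = g * (g⁻¹ * x * g) * g⁻¹ := by group
      _ = 1 := by rw [h2]; group

theorem mem_freePart {ω : X} : ω ∈ freePart K X ↔ ∀ x : K, x • ω = ω → x = 1 := Iff.rfl

/-- The group order divides the number of points with trivial stabilizer. -/
theorem card_dvd_card_freePart : Nat.card K ∣ Nat.card (freePart K X) := by
  have hstab : ∀ b : freePart K X, MulAction.stabilizer K b = ⊥ := by
    intro b
    rw [eq_bot_iff]
    intro x hx
    rw [Subgroup.mem_bot]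
    apply b.2 x
    exact congrArg Subtype.val (MulAction.mem_stabilizer_iff.1 hx)
  have e := MulAction.selfEquivOrbitsQuotientProd hstab
  rw [Nat.card_congr e, Nat.card_prod]
  exact dvd_mul_left _ _

/-- Points split into those with nontrivial stabilizer and the free part. -/
theorem card_eq_bad_add_free [Finite X] :
    Nat.card X = Set.ncard {ω : X | ∃ x : K, x ≠ 1 ∧ x • ω = ω} + Nat.card (freePart K X) := by
  have hc : ((freePart K X : SubMulAction K X) : Set X) =
      {ω : X | ∃ x : K, x ≠ 1 ∧ x • ω = ω}ᶜ := by
    ext ω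
    simp only [SetLike.mem_coe, mem_freePart, Set.mem_compl_iff, Set.mem_ofPred_eq, not_exists,
      not_and]
    constructor
    · intro h x hx hfix
      exact hx (h x hfix)
    · intro h x hfix
      by_contra hx
      exact h x hx hfix
  have h1 : Nat.card (freePart K X) = Set.ncard ((freePart K X : SubMulAction K X) : Set X) :=
    Nat.card_coe_set_eq _
  rw [h1, hc]
  exact (Set.ncard_add_ncard_compl _).symm

variable {K X}

/-- If every nonidentity element fixes at most one point and the group fixes a point, then the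
number of points is `1` modulo the group order. -/
theorem card_mod_of_fixed [Finite X]
    (hF : ∀ x : K, x ≠ 1 → ∀ a b : X, x • a = a → x • b = b → a = b) (ω₀ : X)
    (h₀ : ∀ x : K, x • ω₀ = ω₀) : Nat.card X % Nat.card K = 1 % Nat.card K := by
  rcases subsingleton_or_nontrivial K with hs | hn
  · have h1 : Nat.card K = 1 := Nat.card_unique
    rw [h1, Nat.mod_one, Nat.mod_one]
  · obtain ⟨y, hy⟩ := exists_ne (1 : K)
    have hbad : {ω : X | ∃ x : K, x ≠ 1 ∧ x • ω = ω} = {ω₀} := by
      ext ω
      simp only [Set.mem_ofPred_eq, Set.mem_singleton_iff]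
      constructor
      · rintro ⟨x, hx, hfix⟩
        exact hF x hx ω ω₀ hfix (h₀ x)
      · rintro rfl
        exact ⟨y, hy, h₀ y⟩
    have h2 := card_eq_bad_add_free K X
    rw [hbad, Set.ncard_singleton] at h2
    obtain ⟨c, hc⟩ := card_dvd_card_freePart K X
    rw [h2, hc, Nat.add_mul_mod_self_left]

/-- If every nonidentity element fixes at most one point and the number of points is `1` modulo
the group order, then the group fixes a point. -/
theorem exists_fixed_of_card_mod [Finite K] [Finite X] [Nonempty X]
    (hF : ∀ x : K, x ≠ 1 → ∀ a b : X, x • a = a → x • b = b → a = b)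
    (hmod : Nat.card X % Nat.card K = 1 % Nat.card K) : ∃ ω : X, ∀ x : K, x • ω = ω := by
  classical
  rcases subsingleton_or_nontrivial K with hs | hn
  · obtain ⟨ω⟩ := ‹Nonempty X›
    refine ⟨ω, fun x => ?_⟩
    rw [Subsingleton.elim x 1, one_smul]
  · have hK2 : 2 ≤ Nat.card K := by
      have := Finite.one_lt_card (α := K)
      omega
    have h2 := card_eq_bad_add_free K X
    obtain ⟨c, hc⟩ := card_dvd_card_freePart K X
    -- the bad set has at most `|K| - 1` elements
    have hle : Set.ncard {ω : X | ∃ x : K, x ≠ 1 ∧ x • ω = ω} + 1 ≤ Nat.card K := by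
      have hex : ∀ ω : {ω : X | ∃ x : K, x ≠ 1 ∧ x • ω = ω}, ∃ x : K, x ≠ 1 ∧ x • (ω : X) = ω :=
        fun ω => ω.2
      choose f hf1 hf2 using hex
      have hinj : Function.Injective (fun ω => (⟨f ω, hf1 ω⟩ : {x : K // x ≠ 1})) := by
        intro a b hab
        have h3 : f a = f b := congrArg Subtype.val hab
        have h4 : f a • (b : X) = b := by rw [h3]; exact hf2 b
        exact Subtype.ext (hF (f a) (hf1 a) _ _ (hf2 a) h4)
      have h5 := Nat.card_le_card_of_injective _ hinj
      rw [Nat.card_coe_set_eq] at h5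
      have h6 : Nat.card {x : K // x ≠ 1} + 1 = Nat.card K := by
        have h7 := Set.ncard_add_ncard_compl ({1} : Set K)
        rw [Set.ncard_singleton] at h7
        have h8 : Nat.card {x : K // x ≠ 1} = Set.ncard ({1} : Set K)ᶜ := by
          rw [← Nat.card_coe_set_eq]
          rfl
        omega
      omega
    -- hence it has exactly one element
    have hone : Set.ncard {ω : X | ∃ x : K, x ≠ 1 ∧ x • ω = ω} = 1 := by
      have h9 : (Set.ncard {ω : X | ∃ x : K, x ≠ 1 ∧ x • ω = ω} + Nat.card K * c) %
          Nat.card K = 1 % Nat.card K := by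
        rw [← hc, ← h2]; exact hmod
      rw [Nat.add_mul_mod_self_left] at h9
      have h10 : Set.ncard {ω : X | ∃ x : K, x ≠ 1 ∧ x • ω = ω} < Nat.card K := by omega
      rw [Nat.mod_eq_of_lt h10, Nat.mod_eq_of_lt (by omega : 1 < Nat.card K)] at h9
      exact h9
    obtain ⟨ω, hω⟩ := Set.ncard_eq_one.1 hone
    refine ⟨ω, fun g => ?_⟩
    have hmem : ω ∈ {ω : X | ∃ x : K, x ≠ 1 ∧ x • ω = ω} := by rw [hω]; rfl
    obtain ⟨x, hx, hfix⟩ := hmem
    have hg : g • ω ∈ {ω : X | ∃ x : K, x ≠ 1 ∧ x • ω = ω} := by
      refine ⟨g * x * g⁻¹, ?_, ?_⟩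
      · intro h
        apply hx
        calc x = g⁻¹ * (g * x * g⁻¹) * g := by group
          _ = 1 := by rw [h]; group
      · rw [mul_smul, mul_smul, inv_smul_smul, hfix]
    rw [hω] at hg
    exact hg

end FrobAction

end Cfsg.Agent.Lib.Helper10
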