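import Mathlib
import Cfsg.Agent.Lib.Helper10.Yoshida
import Cfsg.Agent.Lib.Helper2.FrattiniP

/-!
# Yoshida's theorem: the wreath product `C_p ≀ C_p` as an image of a Sylow subgroup

If `P` is a finite `p`-group with a maximal subgroup `P₀` and elements `x, z` such that the
iterated commutator `[x, z; p-1]` lies in `P₀` but not in `Φ(P₀)`, then `P` maps onto a Sylow
`p`-subgroup of `Sym(p²)` (`wreath_of_comm'`).  Together with `yoshida_wc` this gives
`exists_wreath_image`: if `N_G(S)` does not control `p`-transfer, `S` maps onto `C_p ≀ C_p`.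
-/

set_option autoImplicit false
set_option linter.unusedSectionVars false
set_option linter.style.haveILetI false

namespace Cfsg.Agent.Lib.Helper10.Yoshida

open Cfsg.Agent.Lib.Helper70

section Wreath

variable {P : Type*} [Group P] [Finite P] {p : ℕ} [Fact p.Prime]

theorem card_mul_le_of_lt (hP : IsPGroup p P) {A B : Subgroup P} (h : A < B) :
    p * Nat.card A ≤ Nat.card B := by
  have hp : p.Prime := Fact.out
  obtain ⟨a, ha⟩ := (hP.to_subgroup A).exists_card_eq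
  obtain ⟨b, hb⟩ := (hP.to_subgroup B).exists_card_eq
  have hlt := Cfsg.Agent.Lib.Helper54.card_lt_card_of_lt h
  rw [ha, hb] at hlt ⊢
  have hab : a < b := (Nat.pow_lt_pow_iff_right hp.one_lt).mp hlt
  rw [← pow_succ']
  exact Nat.pow_le_pow_right hp.pos hab

omit [Finite P] in
theorem card_sylow_perm (Q : Sylow p (Equiv.Perm (Fin (p ^ 2)))) :
    Nat.card Q = p ^ (p + 1) := by
  have hp : p.Prime := Fact.out
  rw [Sylow.card_eq_multiplicity, Nat.card_perm, Nat.card_fin, Nat.factorization_def _ hp,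
    padicValNat_factorial (b := 3) (by rw [Nat.log_pow hp.one_lt]; norm_num)]
  congr 1
  have h1 : Finset.Ico 1 3 = {1, 2} := by decide
  rw [h1, Finset.sum_pair (by norm_num), pow_one, Nat.div_self (pow_pos hp.pos 2), sq,
    Nat.mul_div_cancel _ hp.pos]

theorem dz_mem_frat {P₀ : Subgroup P} (hP₀p : IsPGroup p P₀) {a b : P} (ha : a ∈ P₀)
    (hb : b ∈ P₀) : HW.dz b a ∈ (frattini ↥P₀).map P₀.subtype := by
  have h := Cfsg.Agent.Lib.Helper87.comm_mem_frattini hP₀p (⟨a, ha⟩ : P₀)⁻¹ (⟨b, hb⟩ : P₀)⁻¹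
  rw [inv_inv, inv_inv] at h
  exact ⟨_, h, rfl⟩

/-- reduction to `x ∈ P₀`, `z ∉ P₀` -/
theorem reduce (hP : IsPGroup p P) (P₀ : Subgroup P) (hP₀ : IsCoatom P₀) (x z : P)
    (hc : (HW.dz z)^[p - 1] x ∈ P₀)
    (hc' : (HW.dz z)^[p - 1] x ∉ (frattini ↥P₀).map P₀.subtype) :
    ∃ x₁ z₁ : P, x₁ ∈ P₀ ∧ z₁ ∉ P₀ ∧ (HW.dz z₁)^[p - 1] x₁ ∈ P₀ ∧
      (HW.dz z₁)^[p - 1] x₁ ∉ (frattini ↥P₀).map P₀.subtype := by
  have hp : p.Prime := Fact.out
  haveI hn : P₀.Normal := Cfsg.Agent.Lib.Helper2.coatom_normal hP hP₀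
  have hP₀p : IsPGroup p P₀ := hP.to_subgroup P₀
  have hF : (frattini ↥P₀).map P₀.subtype ≤ P₀ := Subgroup.map_subtype_le _
  have e1 : p - 1 = (p - 2) + 1 := by have := hp.two_le; omega
  by_cases hz : z ∈ P₀
  · have hall : ∀ i, ∀ y ∈ P₀, (HW.dz z)^[i + 1] y ∈ (frattini ↥P₀).map P₀.subtype := by
      intro i
      induction i with
      | zero => intro y hy; rw [zero_add, Function.iterate_one]; exact dz_mem_frat hP₀p hy hz
      | succ i ih =>
        intro y hy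
        rw [Function.iterate_succ_apply']
        exact dz_mem_frat hP₀p (hF (ih y hy)) hz
    by_cases hx : x ∈ P₀
    · rw [e1] at hc'
      exact absurd (hall (p - 2) x hx) hc'
    · by_cases h2 : p = 2
      · have e3 : p - 1 = 1 := by omega
        rw [e3, Function.iterate_one] at hc hc'
        have e4 : HW.dz x z = (HW.dz z x)⁻¹ := by unfold HW.dz; group
        refine ⟨z, x, hz, hx, ?_, ?_⟩
        · rw [e3, Function.iterate_one, e4]; exact P₀.inv_mem hc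
        · rw [e3, Function.iterate_one, e4]
          intro h
          exact hc' (by simpa using Subgroup.inv_mem _ h)
      · exfalso
        have e2 : p - 2 = (p - 3) + 1 := by have := hp.two_le; omega
        have hy : HW.dz z x ∈ P₀ := by
          have e : HW.dz z x = (x⁻¹ * z⁻¹ * x⁻¹⁻¹) * z := by unfold HW.dz; group
          rw [e]; exact P₀.mul_mem (hn.conj_mem _ (P₀.inv_mem hz) _) hz
        apply hc'
        rw [e1, Function.iterate_succ_apply, e2]
        exact hall (p - 3) _ hy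
  · obtain ⟨a, m, hm, hxe⟩ := Cfsg.Agent.Lib.Helper87.coatom_quot_zpow hP₀ hz x
    have hx₁ : (z ^ a)⁻¹ * m * z ^ a ∈ P₀ := by
      have h1 := hn.conj_mem m hm (z ^ a)⁻¹
      rwa [inv_inv] at h1
    have hd : HW.dz z x = HW.dz z ((z ^ a)⁻¹ * m * z ^ a) := by
      rw [hxe]; unfold HW.dz; group
    have hcc : (HW.dz z)^[p - 1] x = (HW.dz z)^[p - 1] ((z ^ a)⁻¹ * m * z ^ a) := by
      rw [e1, Function.iterate_succ_apply, Function.iterate_succ_apply, hd]
    refine ⟨_, z, hx₁, hz, ?_, ?_⟩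
    · rw [← hcc]; exact hc
    · rw [← hcc]; exact hc'

/-- a `p`-group with `x ∈ P₀`, `z ∉ P₀` and `[x, z; p-1] ∉ Φ(P₀)` maps onto a Sylow
`p`-subgroup of `Sym(p²)` -/
theorem wreath_of_comm (hP : IsPGroup p P) (P₀ : Subgroup P) (hP₀ : IsCoatom P₀) (x z : P)
    (hx : x ∈ P₀) (_hz : z ∉ P₀) (hc : (HW.dz z)^[p - 1] x ∈ P₀)
    (hc' : (HW.dz z)^[p - 1] x ∉ (frattini ↥P₀).map P₀.subtype) :
    ∃ (Q : Sylow p (Equiv.Perm (Fin (p ^ 2))))
      (f : P →* ↥(Q : Subgroup (Equiv.Perm (Fin (p ^ 2))))), Function.Surjective f := by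
  classical
  have hp : p.Prime := Fact.out
  haveI hn : P₀.Normal := Cfsg.Agent.Lib.Helper2.coatom_normal hP hP₀
  have hP₀p : IsPGroup p P₀ := hP.to_subgroup P₀
  obtain ⟨T₀, hT₀, hcT⟩ : ∃ T₀ : Subgroup P₀, IsCoatom T₀ ∧
      (HW.dz z)^[p - 1] x ∉ T₀.map P₀.subtype := by
    by_contra hcon
    push Not at hcon
    apply hc'
    refine ⟨⟨_, hc⟩, (Cfsg.Agent.Lib.Helper2.mem_frattini_iff _).mpr ?_, rfl⟩
    intro M hM
    obtain ⟨y, hy, hye⟩ := hcon M hM
    have h1 : y = ⟨_, hc⟩ := Subtype.ext hye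
    rw [← h1]; exact hy
  haveI hTn : T₀.Normal := Cfsg.Agent.Lib.Helper2.coatom_normal hP₀p hT₀
  have hTidx : T₀.index = p := Cfsg.Agent.Lib.Helper2.coatom_index hP₀p hT₀
  have hP₀idx : P₀.index = p := Cfsg.Agent.Lib.Helper2.coatom_index hP hP₀
  have hCcard : Nat.card (P₀ ⧸ T₀) = p := by rw [← Subgroup.index_eq_card]; exact hTidx
  haveI : IsCyclic (P₀ ⧸ T₀) := isCyclic_of_prime_card hCcard
  letI : CommGroup (P₀ ⧸ T₀) := IsCyclic.commGroup
  have hexp : ∀ a : P₀ ⧸ T₀, a ^ p = 1 := fun a => by rw [← hCcard]; exact pow_card_eq_one'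
  obtain ⟨θ, hθ⟩ : ∃ θ : P → P₀ ⧸ T₀, ∀ y, θ y =
      if h : y ∈ P₀ then QuotientGroup.mk' T₀ ⟨y, h⟩ else 1 := ⟨_, fun _ => rfl⟩
  have hθP : ∀ y (h : y ∈ P₀), θ y = QuotientGroup.mk' T₀ ⟨y, h⟩ :=
    fun y h => by rw [hθ, dif_pos h]
  have hθmul : ∀ a ∈ P₀, ∀ b ∈ P₀, θ (a * b) = θ a * θ b := by
    intro a ha b hb
    rw [hθP a ha, hθP b hb, hθP _ (P₀.mul_mem ha hb), ← map_mul]; rfl
  have hθone : ∀ y ∈ P₀, (θ y = 1 ↔ y ∈ T₀.map P₀.subtype) := by
    intro y hy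
    rw [hθP y hy, QuotientGroup.mk'_apply, QuotientGroup.eq_one_iff]
    constructor
    · intro h; exact ⟨⟨y, hy⟩, h, rfl⟩
    · rintro ⟨y', hy', hye⟩
      have h1 : y' = ⟨y, hy⟩ := Subtype.ext hye
      rw [← h1]; exact hy'
  have hθ1 : θ 1 = 1 := by
    have h := hθmul 1 P₀.one_mem 1 P₀.one_mem
    rw [mul_one] at h
    exact mul_eq_left.mp h.symm
  have hθinv : ∀ a ∈ P₀, θ a⁻¹ = (θ a)⁻¹ := by
    intro a ha
    have h := hθmul a ha a⁻¹ (P₀.inv_mem ha)
    rw [mul_inv_cancel, hθ1] at h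
    exact eq_inv_of_mul_eq_one_right h.symm
  have hzn : ∀ w ∈ P₀, z⁻¹ * w * z ∈ P₀ := by
    intro w hw
    have h1 := hn.conj_mem w hw z⁻¹
    rwa [inv_inv] at h1
  have hdzP : ∀ y ∈ P₀, HW.dz z y ∈ P₀ := by
    intro y hy
    have e : HW.dz z y = y⁻¹ * (z⁻¹ * y * z) := by unfold HW.dz; group
    rw [e]; exact P₀.mul_mem (P₀.inv_mem hy) (hzn _ hy)
  have hiterP : ∀ i : ℕ, ∀ y ∈ P₀, (HW.dz z)^[i] y ∈ P₀ := by
    intro i
    induction i with
    | zero => intro y hy; exact hy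
    | succ i ih =>
      intro y hy
      rw [Function.iterate_succ_apply']
      exact hdzP _ (ih y hy)
  have hstep : ∀ μ : P → P₀ ⧸ T₀, (∀ a ∈ P₀, ∀ b ∈ P₀, μ (a * b) = μ a * μ b) →
      ∀ a ∈ P₀, ∀ b ∈ P₀, μ (HW.dz z (a * b)) = μ (HW.dz z a) * μ (HW.dz z b) := by
    intro μ hμ a ha b hb
    have e1 : HW.dz z (a * b) = b⁻¹ * HW.dz z a * (z⁻¹ * b * z) := by unfold HW.dz; group
    have e2 : HW.dz z b = b⁻¹ * (z⁻¹ * b * z) := by unfold HW.dz; group
    rw [e1, e2, hμ _ (P₀.mul_mem (P₀.inv_mem hb) (hdzP a ha)) _ (hzn b hb),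
      hμ _ (P₀.inv_mem hb) _ (hdzP a ha), hμ _ (P₀.inv_mem hb) _ (hzn b hb),
      mul_comm (μ b⁻¹) (μ (HW.dz z a)), mul_assoc]
  have hitermul : ∀ i : ℕ, ∀ a ∈ P₀, ∀ b ∈ P₀,
      θ ((HW.dz z)^[i] (a * b)) = θ ((HW.dz z)^[i] a) * θ ((HW.dz z)^[i] b) := by
    intro i
    induction i with
    | zero => exact hθmul
    | succ i ih =>
      intro a ha b hb
      rw [Function.iterate_succ_apply, Function.iterate_succ_apply, Function.iterate_succ_apply]
      exact hstep (fun y => θ ((HW.dz z)^[i] y)) ih a ha b hb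
  have hiter1 : ∀ i : ℕ, θ ((HW.dz z)^[i] 1) = 1 := by
    intro i
    have h := hitermul i 1 P₀.one_mem 1 P₀.one_mem
    rw [mul_one] at h
    exact mul_eq_left.mp h.symm
  have hzp : z ^ p ∈ P₀ := Cfsg.Agent.Lib.Helper87.pow_p_mem_coatom hP hP₀ z
  have hcj : ∀ (j : ℕ), ∀ y ∈ P₀, HW.cz z j y ∈ P₀ := by
    intro j y hy
    have h1 := hn.conj_mem y hy (z ^ j)⁻¹
    rw [inv_inv] at h1
    exact h1
  have hK4 : ∀ y ∈ P₀, θ ((HW.dz z)^[p] y) = 1 := by
    intro y hy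
    have hps := HW.power_sum P₀ z hzn θ hθmul p (HW.dz z y) (hdzP y hy)
    have hR : ∏ i ∈ Finset.range p, θ ((HW.dz z)^[i] (HW.dz z y)) ^ (p.choose (i + 1))
        = θ ((HW.dz z)^[p] y) := by
      have e0 : p - 1 + 1 = p := by have := hp.pos; omega
      have e5 : (HW.dz z)^[p] y = (HW.dz z)^[p - 1] (HW.dz z y) := by
        conv_lhs => rw [← e0]
        exact Function.iterate_succ_apply _ _ _
      rw [Finset.prod_eq_single (p - 1)]
      · rw [e0, Nat.choose_self, pow_one, e5]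
      · intro i hi hne
        rw [Finset.mem_range] at hi
        obtain ⟨c, hc⟩ := hp.dvd_choose_self (Nat.succ_ne_zero i) (by omega)
        rw [hc, pow_mul, hexp, one_pow]
      · intro h; exact absurd (Finset.mem_range.mpr (by have := hp.pos; omega)) h
    have hL : ∏ j ∈ Finset.range p, θ (HW.cz z j (HW.dz z y)) = 1 := by
      have e : ∀ j : ℕ, θ (HW.cz z j (HW.dz z y)) = θ (HW.cz z (j + 1) y) / θ (HW.cz z j y) := by
        intro j
        have e1 : HW.cz z j (HW.dz z y) = (HW.cz z j y)⁻¹ * HW.cz z (j + 1) y := by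
          unfold HW.cz HW.dz; rw [pow_succ]; group
        rw [e1, hθmul _ (P₀.inv_mem (hcj j y hy)) _ (hcj (j + 1) y hy), hθinv _ (hcj j y hy),
          div_eq_mul_inv, mul_comm]
      rw [Finset.prod_congr rfl (fun j _ => e j),
        Finset.prod_range_div (fun j => θ (HW.cz z j y))]
      have e0 : HW.cz z 0 y = y := by simp [HW.cz]
      have ep : HW.cz z p y = (z ^ p)⁻¹ * y * z ^ p := rfl
      rw [e0, ep, lam_conj θ hθmul hθ1 hzp hy, div_self']
    rw [← hR, ← hps, hL]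
  -- the chain
  obtain ⟨Nc, hNc⟩ : ∃ Nc : ℕ → Subgroup P, ∀ k y, y ∈ Nc k ↔
      (y ∈ P₀ ∧ ∀ i : ℕ, p - k ≤ i → i < p → θ ((HW.dz z)^[i] y) = 1) := by
    refine ⟨fun k =>
      { carrier := {y | y ∈ P₀ ∧ ∀ i : ℕ, p - k ≤ i → i < p → θ ((HW.dz z)^[i] y) = 1}
        mul_mem' := ?_
        one_mem' := ?_
        inv_mem' := ?_ }, fun k y => Iff.rfl⟩
    · rintro a b ⟨ha, ha'⟩ ⟨hb, hb'⟩
      exact ⟨P₀.mul_mem ha hb, fun i h1 h2 => by
        rw [hitermul i a ha b hb, ha' i h1 h2, hb' i h1 h2, mul_one]⟩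
    · exact ⟨P₀.one_mem, fun i _ _ => hiter1 i⟩
    · rintro a ⟨ha, ha'⟩
      refine ⟨P₀.inv_mem ha, fun i h1 h2 => ?_⟩
      have h := hitermul i a ha a⁻¹ (P₀.inv_mem ha)
      rw [mul_inv_cancel, hiter1, ha' i h1 h2, one_mul] at h
      exact h.symm
  have hN0 : Nc 0 = P₀ := by
    ext y
    rw [hNc]
    constructor
    · exact fun h => h.1
    · intro h; exact ⟨h, fun i h1 h2 => by omega⟩
  have hanti : ∀ k, Nc (k + 1) ≤ Nc k := by
    intro k y hy
    rw [hNc] at hy ⊢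
    exact ⟨hy.1, fun i h1 h2 => hy.2 i (by omega) h2⟩
  have hxk : ∀ k, k < p → (HW.dz z)^[k] x ∈ Nc k ∧ (HW.dz z)^[k] x ∉ Nc (k + 1) := by
    intro k hk
    constructor
    · rw [hNc]
      refine ⟨hiterP k x hx, fun i h1 h2 => ?_⟩
      rw [← Function.iterate_add_apply]
      have e : i + k = p + (i + k - p) := by omega
      rw [e, Function.iterate_add_apply]
      exact hK4 _ (hiterP _ x hx)
    · intro hmem
      rw [hNc] at hmem
      have h := hmem.2 (p - 1 - k) (by omega) (by omega)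
      rw [← Function.iterate_add_apply, show p - 1 - k + k = p - 1 by omega] at h
      exact hcT ((hθone _ hc).mp h)
  have hcard : ∀ k, k ≤ p → p ^ k * Nat.card (Nc k) ≤ Nat.card P₀ := by
    intro k
    induction k with
    | zero => intro _; rw [hN0]; simp
    | succ k ih =>
      intro hk
      have hlt : Nc (k + 1) < Nc k :=
        lt_of_le_of_ne (hanti k) (fun e => (hxk k (by omega)).2 (e ▸ (hxk k (by omega)).1))
      have h1 := card_mul_le_of_lt hP hlt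
      calc p ^ (k + 1) * Nat.card (Nc (k + 1)) = p ^ k * (p * Nat.card (Nc (k + 1))) := by ring
        _ ≤ p ^ k * Nat.card (Nc k) := Nat.mul_le_mul_left _ h1
        _ ≤ _ := ih (by omega)
  -- the action on the cosets of `T`
  obtain ⟨T, hT⟩ : ∃ T : Subgroup P, T = T₀.map P₀.subtype := ⟨_, rfl⟩
  have hTidx' : T.index = p ^ 2 := by rw [hT, Subgroup.index_map_subtype, hTidx, hP₀idx, sq]
  have hTP₀ : T ≤ P₀ := by rw [hT]; exact Subgroup.map_subtype_le _
  letI : Fintype (P ⧸ T) := Fintype.ofFinite _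
  have hcardq : Fintype.card (P ⧸ T) = p ^ 2 := by
    rw [← Nat.card_eq_fintype_card, ← Subgroup.index_eq_card]; exact hTidx'
  obtain ⟨F, hF⟩ : ∃ F : P →* Equiv.Perm (Fin (p ^ 2)),
      ∀ y, F y = 1 → ∀ q : P ⧸ T, y • q = q := by
    refine ⟨(Equiv.permCongrHom (Fintype.equivFinOfCardEq hcardq)).toMonoidHom.comp
      (MulAction.toPermHom P (P ⧸ T)), fun y hy q => ?_⟩
    have h2 : (Equiv.permCongrHom (Fintype.equivFinOfCardEq hcardq))
        (MulAction.toPermHom P (P ⧸ T) y) = 1 := hy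
    have h1 : MulAction.toPermHom P (P ⧸ T) y = 1 :=
      (MulEquiv.map_eq_one_iff _).mp h2
    have h3 := congrArg (fun σ : Equiv.Perm (P ⧸ T) => σ q) h1
    exact h3
  have hkerT : ∀ y, F y = 1 → y ∈ T := by
    intro y hy
    have h1 := hF y hy (QuotientGroup.mk 1)
    have h2 : (QuotientGroup.mk (y * 1) : P ⧸ T) = QuotientGroup.mk 1 := h1
    rw [QuotientGroup.eq, mul_one, mul_one] at h2
    have h3 := T.inv_mem h2
    rwa [inv_inv] at h3
  have hkerdz : ∀ (i : ℕ) y, F y = 1 → F ((HW.dz z)^[i] y) = 1 := by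
    intro i
    induction i with
    | zero => intro y hy; exact hy
    | succ i ih =>
      intro y hy
      rw [Function.iterate_succ_apply']
      have h1 := ih y hy
      have e : ∀ w : P, HW.dz z w = w⁻¹ * z⁻¹ * w * z := fun w => rfl
      rw [e, map_mul, map_mul, map_mul, map_inv, h1]
      simp
  have hkerle : F.ker ≤ Nc p := by
    intro y hy
    rw [MonoidHom.mem_ker] at hy
    rw [hNc]
    refine ⟨hTP₀ (hkerT y hy), fun i _ _ => ?_⟩
    have h1 := hkerT _ (hkerdz i y hy)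
    have h2 : (HW.dz z)^[i] y ∈ P₀ := hTP₀ h1
    rw [hT] at h1
    exact (hθone _ h2).mpr h1
  have hbound : p ^ (p + 1) ≤ Nat.card F.range := by
    rw [← Subgroup.index_ker]
    have h1 := hcard p le_rfl
    have h2 : Nat.card F.ker ≤ Nat.card (Nc p) := Subgroup.card_le_of_le hkerle
    have h3 := F.ker.card_mul_index
    have h4 := P₀.card_mul_index
    rw [hP₀idx] at h4
    have h5 : p ^ (p + 1) * Nat.card F.ker ≤ Nat.card F.ker * F.ker.index := by
      rw [h3, ← h4]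
      calc p ^ (p + 1) * Nat.card F.ker = (p ^ p * Nat.card F.ker) * p := by ring
        _ ≤ (p ^ p * Nat.card (Nc p)) * p :=
          Nat.mul_le_mul_right _ (Nat.mul_le_mul_left _ h2)
        _ ≤ Nat.card P₀ * p := Nat.mul_le_mul_right _ h1
    rw [mul_comm] at h5
    exact Nat.le_of_mul_le_mul_left h5 Nat.card_pos
  have hR : IsPGroup p F.range := by
    rintro ⟨_, y, rfl⟩
    obtain ⟨k, hk⟩ := hP y
    refine ⟨k, Subtype.ext ?_⟩
    show (F y) ^ p ^ k = 1
    rw [← map_pow, hk, map_one]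
  obtain ⟨Q, hRQ⟩ := hR.exists_le_sylow
  have heq : F.range = (Q : Subgroup (Equiv.Perm (Fin (p ^ 2)))) :=
    Subgroup.eq_of_le_of_card_ge hRQ (by rw [card_sylow_perm Q]; exact hbound)
  refine ⟨Q, F.codRestrict (Q : Subgroup (Equiv.Perm (Fin (p ^ 2)))) (fun y => hRQ ⟨y, rfl⟩), ?_⟩
  rintro ⟨q, hq⟩
  have hq' : q ∈ F.range := by rw [heq]; exact hq
  obtain ⟨y, rfl⟩ := hq'
  exact ⟨y, rfl⟩

end Wreath

section Final

universe u

/-- **Yoshida**: if `N_G(S)` does not control `p`-transfer then `S` maps onto a Sylow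
`p`-subgroup of `Sym(p²)`, i.e. onto `C_p ≀ C_p`. -/
theorem exists_wreath_image {G : Type u} [Group G] [Finite G] {p : ℕ} [Fact p.Prime]
    (S : Sylow p G)
    (h : (S : Subgroup G) ⊓ commutator G ≠ (S : Subgroup G) ⊓
      ⁅Subgroup.normalizer ((S : Subgroup G) : Set G),
        Subgroup.normalizer ((S : Subgroup G) : Set G)⁆) :
    ∃ (Q : Sylow p (Equiv.Perm (Fin (p ^ 2))))
      (f : ↥(S : Subgroup G) →* ↥(Q : Subgroup (Equiv.Perm (Fin (p ^ 2))))),
      Function.Surjective f := by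
  have hW : Cfsg.IsWeaklyClosed (S : Subgroup G) (S : Subgroup G) := by
    refine ⟨le_rfl, fun g hg => ?_⟩
    exact Subgroup.eq_of_le_of_card_ge hg
      (by rw [Subgroup.card_map_of_injective (MulEquiv.injective _)])
  by_contra hno
  apply h
  refine le_antisymm (le_inf inf_le_left (yoshida_wc S (S : Subgroup G) hW ?_))
    (inf_le_inf_left _ (Subgroup.commutator_mono le_top le_top))
  intro x hx z hz S₀ hS₀ hc
  by_contra hc'
  apply hno
  have hcoe : ∀ i : ℕ, (((HW.dz (⟨z, hz⟩ : (S : Subgroup G)))^[i] ⟨x, hx⟩ : (S : Subgroup G)) : G)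
      = (fun y : G => y⁻¹ * z⁻¹ * y * z)^[i] x := by
    intro i
    induction i with
    | zero => rfl
    | succ i ih =>
      rw [Function.iterate_succ_apply', Function.iterate_succ_apply', ← ih]
      rfl
  have h1 : (HW.dz (⟨z, hz⟩ : (S : Subgroup G)))^[p - 1] ⟨x, hx⟩ ∈ S₀ := by
    obtain ⟨y, hy, hye⟩ := hc
    have e : y = (HW.dz (⟨z, hz⟩ : (S : Subgroup G)))^[p - 1] ⟨x, hx⟩ :=
      Subtype.ext (hye.trans (hcoe (p - 1)).symm)
    rw [← e]; exact hy
  have h2 : (HW.dz (⟨z, hz⟩ : (S : Subgroup G)))^[p - 1] ⟨x, hx⟩ ∉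
      (frattini ↥S₀).map S₀.subtype := by
    intro hmem
    exact hc' ⟨_, hmem, hcoe (p - 1)⟩
  obtain ⟨x₁, z₁, hx₁, hz₁, hc₁, hc₁'⟩ := reduce S.2 S₀ hS₀ _ _ h1 h2
  exact wreath_of_comm S.2 S₀ hS₀ x₁ z₁ hx₁ hz₁ hc₁ hc₁'

end Final

end Cfsg.Agent.Lib.Helper10.Yoshida
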