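import Mathlib
import Cfsg.Prelude.Def_FusionSystem
import Cfsg.Agent.Lib.Helper10.CocycleYoshida
import Cfsg.Agent.Lib.Helper10.YoshidaWreath
import Cfsg.Agent.Lib.Helper88.BisetTransfer
import Cfsg.Agent.Lib.Helper88.BisetSat
import Cfsg.Agent.Lib.Helper88.BisetCount
import Cfsg.Agent.Lib.Helper87.FusionBasic
import Cfsg.Agent.Lib.Helper87.FusionNormal

/-!
# Yoshida's theorem for saturated fusion systems

`F` a saturated fusion system over a finite `p`-group `S` satisfying the commutator condition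
of Yoshida's theorem (e.g. `S` has no quotient `C_p ≀ C_p`).  Then every homomorphism from `S`
to a finite abelian `p`-group that is invariant under `Aut_F(S)` is invariant under all maps of
`F` (`stable_of_aut_stable`); hence `N_F(S)` controls transfer (`focal_eq_of_no_wreath`).

The proof evaluates the transfer of the characteristic biset (Helper88) orbit by orbit with the
abstract cocycle form of Yoshida's argument (`Cocycle.prod_univ_eq_one`).
-/

set_option autoImplicit false
set_option linter.unusedSectionVars false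
set_option linter.style.haveILetI false

namespace Cfsg.Agent.Lib.Helper10.FusYoshida

open Cfsg Cfsg.FusionSystem MulAction Cfsg.Agent.Lib.Helper88 Cfsg.Agent.Lib.Helper70

universe u v

variable {Ω : Type u} [Group Ω] {S : Subgroup Ω}

/-- the left action of `S` on the right orbits of a biset -/
instance rqAction (S : Subgroup Ω) (X : Type u) [MulAction (S × S) X] :
    MulAction S (RQ S X) where
  smul g := Quotient.lift (fun x => rq S (((g, (1 : S)) : S × S) • x)) (by
    intro x x' h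
    obtain ⟨b, hb⟩ := h
    show rq S (((g, (1 : S)) : S × S) • x) = rq S (((g, (1 : S)) : S × S) • x')
    rw [← hb, smul_smul]
    have e : ((g, (1 : S)) : S × S) * ((1 : S), b) = ((1 : S), b) * (g, (1 : S)) := by
      ext <;> simp
    rw [e, mul_smul, rq_smul])
  one_smul := by
    intro y
    refine Quotient.inductionOn y (fun x => ?_)
    show rq S ((((1 : S), (1 : S)) : S × S) • x) = rq S x
    rw [show (((1 : S), (1 : S)) : S × S) = 1 from rfl, one_smul]
  mul_smul := by
    intro g g' y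
    refine Quotient.inductionOn y (fun x => ?_)
    show rq S (((g * g', (1 : S)) : S × S) • x)
      = rq S (((g, (1 : S)) : S × S) • ((g', (1 : S)) : S × S) • x)
    rw [smul_smul]
    congr 2
    ext <;> simp

theorem smul_rq {X : Type u} [MulAction (S × S) X] (g : S) (x : X) :
    g • rq S x = rq S (((g, (1 : S)) : S × S) • x) := rfl

/-- `π` is invariant under the maps of the system -/
def FStable (F : FusionSystem S) {A : Type v} (π : S → A) : Prop :=
  ∀ (P : Subgroup Ω) (φ : P →* Ω) (hφ : φ ∈ F.Hom P) (x : P),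
    π ⟨φ x, (F.le_of_mem hφ).2 x⟩ = π ⟨x, (F.le_of_mem hφ).1 x.2⟩

theorem eq_of_pow_eq_of_not_dvd {A : Type v} [CommGroup A] {p : ℕ} [Fact p.Prime]
    (hA : IsPGroup p A) {a b : A} {m : ℕ} (hm : ¬ p ∣ m) (h : a ^ m = b ^ m) : a = b := by
  have hp : p.Prime := Fact.out
  have h1 : (a * b⁻¹) ^ m = 1 := by rw [mul_pow, inv_pow, h, mul_inv_cancel]
  obtain ⟨j, hj⟩ := hA (a * b⁻¹)
  have d1 := orderOf_dvd_of_pow_eq_one h1
  have d2 := orderOf_dvd_of_pow_eq_one hj
  have hcop : Nat.Coprime m (p ^ j) :=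
    Nat.Coprime.pow_right j ((Nat.Prime.coprime_iff_not_dvd hp).mpr hm).symm
  have d3 := Nat.dvd_gcd d1 d2
  rw [hcop] at d3
  have h2 : orderOf (a * b⁻¹) = 1 := Nat.dvd_one.mp d3
  rw [orderOf_eq_one_iff] at h2
  exact mul_inv_eq_one.mp h2

theorem card_range_pow_lt {A : Type v} [CommGroup A] [Finite A] {p : ℕ} [Fact p.Prime]
    (hA : IsPGroup p A) (hne : Nat.card A ≠ 1) :
    Nat.card (powMonoidHom p : A →* A).range < Nat.card A := by
  have hp : p.Prime := Fact.out
  obtain ⟨k, hk⟩ := hA.exists_card_eq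
  have hk0 : k ≠ 0 := by
    intro h0
    rw [h0, pow_zero] at hk
    exact hne hk
  have hdvd : p ∣ Nat.card A := by rw [hk]; exact dvd_pow_self p hk0
  obtain ⟨a, ha⟩ := exists_prime_orderOf_dvd_card' (G := A) p hdvd
  have hker : (powMonoidHom p : A →* A).ker ≠ ⊥ := by
    intro h
    have h1 : a ∈ (powMonoidHom p : A →* A).ker := by
      rw [MonoidHom.mem_ker, powMonoidHom_apply, ← ha, pow_orderOf_eq_one]
    rw [h, Subgroup.mem_bot] at h1
    rw [h1, orderOf_one] at ha
    exact hp.one_lt.ne ha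
  have h2 : 1 < Nat.card (powMonoidHom p : A →* A).ker :=
    (Subgroup.one_lt_card_iff_ne_bot _).mpr hker
  have h3 := (powMonoidHom p : A →* A).ker.card_mul_index
  rw [Subgroup.index_ker] at h3
  have h4 : 0 < Nat.card (powMonoidHom p : A →* A).range := Nat.card_pos
  nlinarith

/-- **Yoshida for fusion systems**, homomorphism form: under the commutator condition, an
`Aut_F(S)`-invariant homomorphism to a finite abelian `p`-group is `F`-invariant. -/
theorem stable_of_aut_stable [Finite S] {p : ℕ} [Fact p.Prime] (hS : IsPGroup p S)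
    (F : FusionSystem S) (hF : F.IsSaturated p)
    (hcon : ∀ x z : S, ∀ M : Subgroup S, IsCoatom M → (HW.dz z)^[p - 1] x ∈ M →
      (HW.dz z)^[p - 1] x ∈ (frattini ↥M).map M.subtype) :
    ∀ (n : ℕ) (A : Type v) [CommGroup A] [Finite A], IsPGroup p A → Nat.card A = n →
      ∀ π : S →* A,
      (∀ (φ : S →* Ω) (hφ : φ ∈ F.Hom S) (x : S), π ⟨φ x, (F.le_of_mem hφ).2 x⟩ = π x) →
      FStable F π := by
  intro n
  induction n using Nat.strong_induction_on with
  | _ n ih =>
    intro A _ _ hA hn π hπ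
    have hp : p.Prime := Fact.out
    -- the `p`-th power of `π` is stable
    have hpow : ∀ (P : Subgroup Ω) (φ : P →* Ω) (hφ : φ ∈ F.Hom P) (x : P),
        π ⟨φ x, (F.le_of_mem hφ).2 x⟩ ^ p = π ⟨x, (F.le_of_mem hφ).1 x.2⟩ ^ p := by
      by_cases htriv : Nat.card A = 1
      · intro P φ hφ x
        haveI : Subsingleton A := (Nat.card_eq_one_iff_unique.mp htriv).1
        exact Subsingleton.elim _ _
      · have hlt : Nat.card (powMonoidHom p : A →* A).range < n := by
          rw [← hn]; exact card_range_pow_lt hA htriv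
        have hst := ih _ hlt (powMonoidHom p : A →* A).range (hA.to_subgroup _) rfl
          ((powMonoidHom p : A →* A).rangeRestrict.comp π)
          (fun φ hφ x => Subtype.ext (congrArg (fun a => a ^ p) (hπ φ hφ x)))
        intro P φ hφ x
        exact congrArg Subtype.val (hst P φ hφ x)
    -- the characteristic biset and its transfer
    obtain ⟨X, _, _, hgen, hst, -, c, hc⟩ := exists_char_biset hS F hF
    have hfree : RightFree S X := genBy_rightFree hgen
    have hm : ¬ p ∣ Fintype.card (RQ S X) := by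
      rw [← Nat.card_eq_fintype_card]
      exact card_rq_not_dvd hS F hF X hgen hst c hc
    obtain ⟨σ, hσ⟩ : ∃ σ : RQ S X → X, ∀ y, rq S (σ y) = y :=
      ⟨fun y => Quotient.out y, fun y => Quotient.out_eq y⟩
    obtain ⟨τ, hτ, hτst⟩ : ∃ τ : S →* A,
        (∀ x : S, τ x = ∏ y : RQ S X, π (bet σ hσ (((x, (1 : S)) : S × S) • σ y))) ∧
        FStable F τ := by
      refine ⟨(transferHom σ hσ hfree π).comp (leftHom S X), fun x => rfl, ?_⟩
      intro P φ hφ x
      exact transfer_stable F X hst (transferHom σ hσ hfree π) (F.le_of_mem hφ).1 hφ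
        (F.le_of_mem hφ).2 x
    -- the cocycle
    obtain ⟨U, hUdef⟩ : ∃ U : S → RQ S X → A, ∀ g y,
        U g y = π (bet σ hσ (((g⁻¹, (1 : S)) : S × S) • σ y)) * (π g)⁻¹ := ⟨_, fun _ _ => rfl⟩
    have hrq : ∀ (g : S) (y : RQ S X), rq S (((g, (1 : S)) : S × S) • σ y) = g • y := by
      intro g y
      conv_rhs => rw [← hσ y]
      rfl
    have hU : Cocycle.IsCocycle U := by
      intro g g' y
      have e1 : (((g * g')⁻¹, (1 : S)) : S × S) • σ y
          = ((leftHom S X g'⁻¹ : rightPerm S X) : Equiv.Perm X)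
              (((g⁻¹, (1 : S)) : S × S) • σ y) := by
        rw [leftHom_apply, smul_smul]
        congr 1
        ext <;> simp [mul_inv_rev]
      have e2 := bet_perm σ hσ hfree (leftHom S X g'⁻¹).2 (((g⁻¹, (1 : S)) : S × S) • σ y)
      rw [hUdef, hUdef, hUdef, e1, e2, hrq, leftHom_apply, map_mul, map_mul, mul_inv]
      exact mul_mul_mul_comm _ _ _ _
    -- values at fixed points
    have hfix : ∀ y : RQ S X, ∃ (P : Subgroup Ω) (φ : P →* Ω) (hφ : φ ∈ F.Hom P),
        ∀ g : S, g • y = y → ∃ hg : (g : Ω) ∈ P,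
          U g y = π ⟨φ ⟨g, hg⟩, (F.le_of_mem hφ).2 _⟩ * (π g)⁻¹ := by
      intro y
      obtain ⟨P, f, hf, hD⟩ := hgen (σ y)
      obtain ⟨φ, hφ, hφf⟩ := hf
      refine ⟨P, φ, hφ, fun g hgy => ?_⟩
      have hginv : g⁻¹ • y = y := by rw [inv_smul_eq_iff, hgy]
      have hsp := bet_spec σ hσ (((g⁻¹, (1 : S)) : S × S) • σ y)
      rw [hrq, hginv] at hsp
      obtain ⟨β, hβ⟩ : ∃ β : S, β = bet σ hσ (((g⁻¹, (1 : S)) : S × S) • σ y) := ⟨_, rfl⟩
      rw [← hβ] at hsp
      have hmem : ((g⁻¹, β⁻¹) : S × S) ∈ stabilizer (S × S) (σ y) := by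
        rw [mem_stabilizer_iff]
        have e : ((g⁻¹, β⁻¹) : S × S) = (((1 : S), β) : S × S)⁻¹ * (g⁻¹, (1 : S)) := by
          ext <;> simp
        rw [e, mul_smul, ← hsp, inv_smul_smul]
      obtain ⟨h1, h2⟩ := (hD _).1 hmem
      have hg : (g : Ω) ∈ P := by
        have h3 := P.inv_mem h1
        simpa using h3
      refine ⟨hg, ?_⟩
      rw [hUdef, ← hβ]
      congr 2
      apply Subtype.ext
      show (β : Ω) = φ ⟨g, hg⟩
      have h4 : ((β⁻¹ : S) : Ω) = (φ ⟨g, hg⟩)⁻¹ := by
        have h5 : ((β⁻¹ : S) : Ω) = f ((g⁻¹ : S) : Ω) := h2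
        have h6 : f ((g⁻¹ : S) : Ω) = φ ⟨((g⁻¹ : S) : Ω), h1⟩ := (hφf ⟨_, h1⟩).symm
        have h7 : (⟨((g⁻¹ : S) : Ω), h1⟩ : P) = (⟨(g : Ω), hg⟩ : P)⁻¹ := Subtype.ext (by simp)
        rw [h5, h6, h7, map_inv]
      rw [Subgroup.coe_inv] at h4
      exact inv_injective h4
    have hfixp : ∀ (g : S) (y : RQ S X), g • y = y → U g y ^ p = 1 := by
      intro g y hgy
      obtain ⟨P, φ, hφ, h⟩ := hfix y
      obtain ⟨hg, e⟩ := h g hgy
      rw [e, mul_pow, inv_pow, hpow P φ hφ ⟨g, hg⟩]
      exact mul_inv_cancel _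
    have hfixall : ∀ y : RQ S X, (∀ g : S, g • y = y) → ∀ g, U g y = 1 := by
      intro y hall g
      obtain ⟨P, φ, hφ, h⟩ := hfix y
      have hSP : S ≤ P := fun s hs => (h ⟨s, hs⟩ (hall _)).1
      obtain ⟨hg, e⟩ := h g (hall g)
      have h1 := hπ (φ.comp (Subgroup.inclusion hSP))
        (Cfsg.Agent.Lib.Helper87.hom_restrict F hSP hφ) g
      have h2 : π ⟨φ ⟨g, hg⟩, (F.le_of_mem hφ).2 _⟩ = π g := h1
      rw [e, h2, mul_inv_cancel]
    -- stability on elements of order dividing `p ^ k`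
    have key : ∀ k : ℕ, ∀ x : S, x ^ p ^ k = 1 → ∀ (P : Subgroup Ω) (φ : P →* Ω)
        (hφ : φ ∈ F.Hom P) (hx : (x : Ω) ∈ P),
        π ⟨φ ⟨x, hx⟩, (F.le_of_mem hφ).2 _⟩ = π x := by
      intro k
      induction k with
      | zero =>
        intro x hx P φ hφ hxP
        rw [pow_zero, pow_one] at hx
        subst hx
        have h1 : φ ⟨((1 : S) : Ω), hxP⟩ = 1 := map_one φ
        have h2 : (⟨φ ⟨((1 : S) : Ω), hxP⟩, (F.le_of_mem hφ).2 _⟩ : S) = 1 := Subtype.ext h1
        rw [h2]
      | succ k ihk =>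
        intro x hx P φ hφ hxP
        have hprod : ∀ w : S, w ^ p ^ (k + 1) = 1 →
            τ w = (π w)⁻¹ ^ Fintype.card (RQ S X) := by
          intro w hw
          have hval : ∀ (q : RQ S X) (n : ℕ), p ∣ n → w⁻¹ ^ n • q = q →
              U (w⁻¹ ^ n) q = 1 := by
            intro q n hn hq
            obtain ⟨P', φ', hφ', h⟩ := hfix q
            obtain ⟨hg, e⟩ := h _ hq
            obtain ⟨n', rfl⟩ := hn
            have hgk : (w⁻¹ ^ (p * n')) ^ p ^ k = 1 := by
              have e' : p * n' * p ^ k = p ^ (k + 1) * n' := by ring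
              rw [← pow_mul, e', inv_pow, pow_mul, hw, one_pow, inv_one]
            rw [e, ihk _ hgk P' φ' hφ' hg, mul_inv_cancel]
          have h1 := Cocycle.prod_univ_eq_one hS U hU hfixp hfixall hcon w⁻¹ hval
          have h2 : ∏ q : RQ S X, U w⁻¹ q
              = τ w * (π w) ^ Fintype.card (RQ S X) := by
            rw [hτ, ← Finset.card_univ, ← Finset.prod_const, ← Finset.prod_mul_distrib]
            refine Finset.prod_congr rfl (fun q _ => ?_)
            rw [hUdef, inv_inv, map_inv, inv_inv]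
          rw [h2] at h1
          rw [inv_pow]
          exact eq_inv_of_mul_eq_one_left h1
        obtain ⟨x', hx'⟩ : ∃ x' : S, x' = ⟨φ ⟨x, hxP⟩, (F.le_of_mem hφ).2 _⟩ := ⟨_, rfl⟩
        have hx'pow : x' ^ p ^ (k + 1) = 1 := by
          apply Subtype.ext
          rw [hx']
          show (φ ⟨x, hxP⟩) ^ p ^ (k + 1) = 1
          rw [← map_pow]
          have e : (⟨(x : Ω), hxP⟩ : P) ^ p ^ (k + 1) = 1 := by
            apply Subtype.ext
            show (x : Ω) ^ p ^ (k + 1) = 1
            have := congrArg Subtype.val hx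
            simpa using this
          rw [e, map_one]
        have h1 := hprod x hx
        have h2 := hprod x' hx'pow
        have h3 : τ x' = τ x := by
          rw [hx']
          exact hτst P φ hφ ⟨x, hxP⟩
        rw [← hx']
        have h4 : (π x')⁻¹ ^ Fintype.card (RQ S X) = (π x)⁻¹ ^ Fintype.card (RQ S X) := by
          rw [← h1, ← h2, h3]
        exact inv_injective (eq_of_pow_eq_of_not_dvd hA hm h4)
    intro P φ hφ x
    obtain ⟨k, hk⟩ := hS ⟨x, (F.le_of_mem hφ).1 x.2⟩
    exact key k _ hk P φ hφ x.2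

/-- **Yoshida's theorem for fusion systems**: if `N_F(S)` does not control transfer in the
saturated fusion system `F`, then `S` maps onto a Sylow `p`-subgroup of `Sym(p²)`. -/
theorem exists_wreath_image_fusion [Finite S] (p : ℕ) [Fact p.Prime] (hS : IsPGroup p S)
    (F : FusionSystem S) (hF : F.IsSaturated p) (N : FusionSystem (normalizerIn S S))
    (hN : F.IsNormalizerSystem S N) (hne : N.focalSubgroup ≠ F.focalSubgroup) :
    ∃ (W : Sylow p (Equiv.Perm (Fin (p ^ 2))))
      (f : ↥S →* ↥(W : Subgroup (Equiv.Perm (Fin (p ^ 2))))), Function.Surjective f := by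
  by_contra hno
  have hcon : ∀ x z : S, ∀ M : Subgroup S, IsCoatom M → (HW.dz z)^[p - 1] x ∈ M →
      (HW.dz z)^[p - 1] x ∈ (frattini ↥M).map M.subtype := by
    intro x z M hM hc
    by_contra hc'
    apply hno
    obtain ⟨x₁, z₁, hx₁, hz₁, hc₁, hc₁'⟩ :=
      Cfsg.Agent.Lib.Helper10.Yoshida.reduce hS M hM x z hc hc'
    exact Cfsg.Agent.Lib.Helper10.Yoshida.wreath_of_comm hS M hM x₁ z₁ hx₁ hz₁ hc₁ hc₁'
  apply hne
  have hsub : ∀ P : Subgroup Ω, N.Hom P ⊆ F.Hom P := by
    intro P φ hφ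
    rw [hN P] at hφ
    exact hφ.1
  apply le_antisymm
  · unfold focalSubgroup
    apply Subgroup.closure_mono
    rintro y ⟨P, φ, x, hφ, rfl⟩
    exact ⟨P, φ, x, hsub P hφ, rfl⟩
  · have hautD : ∀ (φ : S →* Ω) (hφ : φ ∈ F.Hom S) (x : S),
        (x : Ω)⁻¹ * φ x ∈ N.focalSubgroup := by
      intro φ hφ x
      apply Subgroup.subset_closure
      refine ⟨S, φ, x, ?_, rfl⟩
      rw [hN S]
      have hφS : ∀ x : S, φ x ∈ S := (F.le_of_mem hφ).2
      refine ⟨hφ, le_inf le_rfl Subgroup.le_normalizer,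
        fun x => ⟨hφS x, Subgroup.le_normalizer (hφS x)⟩, ?_⟩
      have hSS : S ⊔ S = S := sup_idem _
      refine ⟨φ.comp (Subgroup.inclusion hSS.le),
        Cfsg.Agent.Lib.Helper87.hom_of_eq F hSS hφ, fun x => rfl, ?_⟩
      rw [Cfsg.Agent.Lib.Helper87.map_subgroupOf_eq_iff le_sup_right]
      refine ⟨fun q hq => hφS _, fun q hq => ?_⟩
      have hinj : Function.Injective (φ.codRestrict S hφS) := by
        intro a b hab
        exact F.injective_of_mem hφ (congrArg Subtype.val hab)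
      obtain ⟨y, hy⟩ := Finite.surjective_of_injective hinj ⟨q, hq⟩
      exact ⟨y, y.2, congrArg Subtype.val hy⟩
    have hconjD : ∀ g x : S, (x : Ω)⁻¹ * (g * x * g⁻¹) ∈ N.focalSubgroup := by
      intro g x
      exact hautD (conjHom S g) (F.conj_mem le_rfl g.2) x
    obtain ⟨D, hD⟩ : ∃ D : Subgroup S, D = N.focalSubgroup.subgroupOf S := ⟨_, rfl⟩
    have hDmem : ∀ a : S, a ∈ D ↔ (a : Ω) ∈ N.focalSubgroup := by
      intro a; rw [hD, Subgroup.mem_subgroupOf]
    haveI hDn : D.Normal := by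
      refine ⟨fun n hn g => ?_⟩
      have h1 := hconjD g n
      have h2 : g * n * g⁻¹ = n * (n⁻¹ * (g * n * g⁻¹)) := by group
      rw [h2]
      exact D.mul_mem hn ((hDmem _).mpr (by simpa using h1))
    letI : CommGroup (S ⧸ D) :=
      { (inferInstance : Group (S ⧸ D)) with
        mul_comm := by
          intro a b
          refine Quotient.inductionOn₂' a b (fun a b => ?_)
          show ((a * b : S) : S ⧸ D) = ((b * a : S) : S ⧸ D)
          rw [QuotientGroup.eq, hDmem]
          have h1 := hconjD a⁻¹ b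
          have e : (((a * b)⁻¹ * (b * a) : S) : Ω)
              = (b : Ω)⁻¹ * (((a⁻¹ : S) : Ω) * b * ((a⁻¹ : S) : Ω)⁻¹) := by
            simp only [Subgroup.coe_mul, Subgroup.coe_inv]; group
          rw [e]; exact h1 }
    have hπ : ∀ (φ : S →* Ω) (hφ : φ ∈ F.Hom S) (x : S),
        QuotientGroup.mk' D ⟨φ x, (F.le_of_mem hφ).2 x⟩ = QuotientGroup.mk' D x := by
      intro φ hφ x
      show ((⟨φ x, (F.le_of_mem hφ).2 x⟩ : S) : S ⧸ D) = ((x : S) : S ⧸ D)
      symm
      rw [QuotientGroup.eq, hDmem]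
      exact hautD φ hφ x
    have hst := stable_of_aut_stable hS F hF hcon _ (S ⧸ D) (hS.to_quotient D) rfl
      (QuotientGroup.mk' D) hπ
    unfold focalSubgroup
    rw [Subgroup.closure_le]
    rintro y ⟨P, φ, x, hφ, rfl⟩
    have h := hst P φ hφ x
    have h2 : ((⟨x, (F.le_of_mem hφ).1 x.2⟩ : S) : S ⧸ D)
        = ((⟨φ x, (F.le_of_mem hφ).2 x⟩ : S) : S ⧸ D) := h.symm
    rw [QuotientGroup.eq, hDmem] at h2
    exact h2

end Cfsg.Agent.Lib.Helper10.FusYoshida
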