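import Mathlib
import Cfsg.Prelude.Def_ConjugacyFunctors
import Cfsg.Agent.Lib.Helper33.Focal
import Cfsg.Agent.Lib.Helper33.Sect2

/-!
# Local-to-global transfer for a pair of functors (Glauberman)

`prodSub A B h` : the subgroup `A * B` when `B` normalizes `A`.
`enl S T` : the enlargement `N_S(T) ∩ T C_G(T)` of a subgroup `T ≤ S`; it contains `T` and `Z(S)`.
`frattini_enl` : if `N_S(T)` is a Sylow subgroup of `N_G(T)`, every `x ∈ N_G(T)` is `c * y` with
`c ∈ C_G(T)` and `y ∈ N_G(enl S T)` (so conjugation by `x` on `T` is conjugation by `y`).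
`pair_transfer` : statement `S2001`.
-/

set_option autoImplicit false

namespace Cfsg.Agent.Lib.Helper10.PairTransfer

open Cfsg Cfsg.Agent.Lib.Helper33

open scoped commutatorElement

variable {G : Type*} [Group G]

/-- The subgroup `A * B` when `B` normalizes `A`. -/
def prodSub (A B : Subgroup G) (h : ∀ b ∈ B, ∀ a ∈ A, b * a * b⁻¹ ∈ A) : Subgroup G where
  carrier := {x | ∃ a ∈ A, ∃ b ∈ B, x = a * b}
  mul_mem' := by
    rintro _ _ ⟨a, ha, b, hb, rfl⟩ ⟨a', ha', b', hb', rfl⟩
    exact ⟨a * (b * a' * b⁻¹), mul_mem ha (h b hb a' ha'), b * b', mul_mem hb hb', by group⟩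
  one_mem' := ⟨1, one_mem _, 1, one_mem _, by simp⟩
  inv_mem' := by
    rintro _ ⟨a, ha, b, hb, rfl⟩
    exact ⟨b⁻¹ * a⁻¹ * b⁻¹⁻¹, h b⁻¹ (inv_mem hb) a⁻¹ (inv_mem ha), b⁻¹, inv_mem hb, by group⟩

theorem mem_prodSub {A B : Subgroup G} {h : ∀ b ∈ B, ∀ a ∈ A, b * a * b⁻¹ ∈ A} {x : G} :
    x ∈ prodSub A B h ↔ ∃ a ∈ A, ∃ b ∈ B, x = a * b := Iff.rfl

theorem sup_le_prodSub {A B : Subgroup G} (h : ∀ b ∈ B, ∀ a ∈ A, b * a * b⁻¹ ∈ A) :
    A ⊔ B ≤ prodSub A B h :=
  sup_le (fun a ha => ⟨a, ha, 1, one_mem _, by simp⟩) (fun b hb => ⟨1, one_mem _, b, hb, by simp⟩)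

/-- The enlargement `N_S(T) ∩ T C_G(T)` of `T`. -/
def enl (S T : Subgroup G) : Subgroup G :=
  (S ⊓ Subgroup.normalizer (T : Set G)) ⊓ (T ⊔ Subgroup.centralizer (T : Set G))

theorem le_enl {S T : Subgroup G} (hTS : T ≤ S) : T ≤ enl S T :=
  le_inf (le_inf hTS Subgroup.le_normalizer) le_sup_left

theorem enl_le (S T : Subgroup G) : enl S T ≤ S := inf_le_left.trans inf_le_left

theorem center_le_enl {S T : Subgroup G} (hTS : T ≤ S) :
    S ⊓ Subgroup.centralizer (S : Set G) ≤ enl S T := by
  have h1 : Subgroup.centralizer (S : Set G) ≤ Subgroup.centralizer (T : Set G) :=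
    Subgroup.centralizer_le hTS
  refine le_inf (le_inf inf_le_left ?_) ?_
  · exact inf_le_right.trans (h1.trans (Subgroup.centralizer_le_normalizer _))
  · exact inf_le_right.trans (h1.trans le_sup_right)

theorem conj_mem_centralizer {T : Subgroup G} {t c : G} (ht : t ∈ Subgroup.normalizer (T : Set G))
    (hc : c ∈ Subgroup.centralizer (T : Set G)) : t * c * t⁻¹ ∈ Subgroup.centralizer (T : Set G) := by
  have h1 := conj_mem_cj (g := t) hc
  rwa [cj_centralizer, mem_normalizer_iff_cj.1 ht] at h1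

section finite

variable [Finite G] {p : ℕ} [Fact p.Prime]

/-- Frattini argument: an element of `N_G(T)` is a product of an element of `C_G(T)` and an element
of the normalizer of the enlargement of `T`. -/
theorem frattini_enl {S T : Subgroup G}
    (hsyl : SylIn p (S ⊓ Subgroup.normalizer (T : Set G)) (Subgroup.normalizer (T : Set G)))
    (hTS : T ≤ S) {x : G} (hx : x ∈ Subgroup.normalizer (T : Set G)) :
    ∃ c ∈ Subgroup.centralizer (T : Set G), ∃ y ∈ Subgroup.normalizer ((enl S T : Subgroup G) : Set G),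
      x = c * y := by
  have hMN : T ⊔ Subgroup.centralizer (T : Set G) ≤ Subgroup.normalizer (T : Set G) :=
    sup_le Subgroup.le_normalizer (Subgroup.centralizer_le_normalizer _)
  have hMinv : ∀ n ∈ Subgroup.normalizer (T : Set G),
      cj n (T ⊔ Subgroup.centralizer (T : Set G)) = T ⊔ Subgroup.centralizer (T : Set G) := by
    intro n hn
    have h1 : cj n (T ⊔ Subgroup.centralizer (T : Set G)) =
        cj n T ⊔ cj n (Subgroup.centralizer (T : Set G)) := Subgroup.map_sup _ _ _
    rw [h1, cj_centralizer, mem_normalizer_iff_cj.1 hn]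
  have h1 : SylIn p (enl S T) (T ⊔ Subgroup.centralizer (T : Set G)) :=
    hsyl.inf_normal hMN hMinv
  have h2 : SylIn p (cj x (enl S T)) (T ⊔ Subgroup.centralizer (T : Set G)) := by
    have := h1.conj x
    rwa [hMinv x hx] at this
  obtain ⟨k, hkM, hk⟩ := h1.exists_cj_eq h2
  have hkx : k * x ∈ Subgroup.normalizer ((enl S T : Subgroup G) : Set G) :=
    mem_normalizer_iff_cj.2 (by rw [cj_mul]; exact hk)
  have hnorm : ∀ b ∈ T, ∀ a ∈ Subgroup.centralizer (T : Set G),
      b * a * b⁻¹ ∈ Subgroup.centralizer (T : Set G) :=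
    fun b hb a ha => conj_mem_centralizer (Subgroup.le_normalizer hb) ha
  have hk' : k ∈ prodSub (Subgroup.centralizer (T : Set G)) T hnorm := by
    apply sup_le_prodSub hnorm
    rw [sup_comm]; exact hkM
  obtain ⟨c₁, hc₁, t, ht, rfl⟩ := hk'
  refine ⟨t⁻¹ * c₁⁻¹ * t⁻¹⁻¹, hnorm t⁻¹ (inv_mem ht) c₁⁻¹ (inv_mem hc₁), t⁻¹ * (c₁ * t * x), ?_, by group⟩
  exact mul_mem (Subgroup.le_normalizer (le_enl hTS (inv_mem ht))) hkx

end finite

/-- Transfer control by the pair `(W, V)` with respect to a specific Sylow subgroup `T` of `H`. -/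
def PTrAt (W V : Subgroup G → Subgroup G) (H T : Subgroup G) : Prop :=
  ∀ x : G, x ∈ T ⊓ ⁅H, H⁆ ↔
    ∃ a ∈ T ⊓ ⁅H ⊓ Subgroup.normalizer ((W T : Subgroup G) : Set G),
        H ⊓ Subgroup.normalizer ((W T : Subgroup G) : Set G)⁆,
      ∃ b ∈ T ⊓ ⁅H ⊓ Subgroup.centralizer ((V T : Subgroup G) : Set G),
          H ⊓ Subgroup.centralizer ((V T : Subgroup G) : Set G)⁆, x = a * b

theorem PTrAt.conj {p : ℕ} {W V : Subgroup G → Subgroup G} (hW : IsConjugacyFunctor p W)
    (hV : IsConjugacyFunctor p V) {H T : Subgroup G} (hT : IsPGroup p T) {k : G} (hk : k ∈ H)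
    (h : PTrAt W V H T) : PTrAt W V H (cj k T) := by
  intro x
  have eL : cj k (T ⊓ ⁅H, H⁆) = cj k T ⊓ ⁅H, H⁆ := by
    rw [cj_inf, cj_commutator, cj_eq_self_of_mem hk]
  have eA : cj k (T ⊓ ⁅H ⊓ Subgroup.normalizer ((W T : Subgroup G) : Set G),
        H ⊓ Subgroup.normalizer ((W T : Subgroup G) : Set G)⁆) =
      cj k T ⊓ ⁅H ⊓ Subgroup.normalizer ((W (cj k T) : Subgroup G) : Set G),
        H ⊓ Subgroup.normalizer ((W (cj k T) : Subgroup G) : Set G)⁆ := by
    rw [cj_inf, cj_commutator, cj_inf, cj_eq_self_of_mem hk, cj_normalizer, ← cf_cj_eq hW hT]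
  have eB : cj k (T ⊓ ⁅H ⊓ Subgroup.centralizer ((V T : Subgroup G) : Set G),
        H ⊓ Subgroup.centralizer ((V T : Subgroup G) : Set G)⁆) =
      cj k T ⊓ ⁅H ⊓ Subgroup.centralizer ((V (cj k T) : Subgroup G) : Set G),
        H ⊓ Subgroup.centralizer ((V (cj k T) : Subgroup G) : Set G)⁆ := by
    rw [cj_inf, cj_commutator, cj_inf, cj_eq_self_of_mem hk, cj_centralizer, ← cf_cj_eq hV hT]
  constructor
  · intro hx
    have hx' : k⁻¹ * x * k ∈ T ⊓ ⁅H, H⁆ := by
      rw [← eL] at hx; exact mem_cj.1 hx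
    obtain ⟨a, ha, b, hb, e⟩ := (h _).1 hx'
    refine ⟨k * a * k⁻¹, ?_, k * b * k⁻¹, ?_, ?_⟩
    · rw [← eA]; exact conj_mem_cj ha
    · rw [← eB]; exact conj_mem_cj hb
    · have e2 : x = k * (k⁻¹ * x * k) * k⁻¹ := by group
      rw [e2, e]; group
  · rintro ⟨a, ha, b, hb, rfl⟩
    rw [← eA] at ha
    rw [← eB] at hb
    have ha' := mem_cj.1 ha
    have hb' := mem_cj.1 hb
    have h3 := (h _).2 ⟨_, ha', _, hb', rfl⟩
    rw [← eL]
    apply mem_cj.2
    have e2 : k⁻¹ * (a * b) * k = k⁻¹ * a * k * (k⁻¹ * b * k) := by group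
    rw [e2]; exact h3

section main

variable [Finite G] {p : ℕ} [Fact p.Prime]

omit [Finite G] [Fact p.Prime] in
/-- If `Z(S) ≤ T ≤ S` then every term of the tower of `T` contains `Z(S)`. -/
theorem center_le_tower {S : Subgroup G} {W : Subgroup G → Subgroup G}
    (hW : IsConjugacyFunctor p W) (hS : IsPGroup p S)
    (hWZ : ∀ H : Subgroup G, IsPGroup p ↥H → H ⊓ Subgroup.centralizer (H : Set G) ≤ W H)
    {T : Subgroup G} (hTS : T ≤ S) (hZT : S ⊓ Subgroup.centralizer (S : Set G) ≤ T) (i : ℕ) :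
    S ⊓ Subgroup.centralizer (S : Set G) ≤ functorTower W S T i := by
  induction i with
  | zero => exact hZT
  | succ j ih =>
    rw [tower_succ']
    refine le_trans ?_ (hWZ _ (towerN_isPGroup hS T j))
    refine le_inf ?_ ?_
    · exact ih.trans (le_inf (tower_le hW hS hTS j) Subgroup.le_normalizer)
    · exact inf_le_right.trans (Subgroup.centralizer_le (towerN_le_left W S T j))

/-- Climbing the tower of a well-placed subgroup containing `Z(P)`, pair version. -/
theorem pair_climb (P : Sylow p G) (hPne : (P : Subgroup G) ≠ ⊥)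
    (W V : Subgroup G → Subgroup G) (hW : IsConjugacyFunctor p W)
    (hWZ : ∀ H : Subgroup G, IsPGroup p ↥H → H ⊓ Subgroup.centralizer (H : Set G) ≤ W H)
    (hVmono : ∀ H K : Subgroup G, IsPGroup p ↥H → IsPGroup p ↥K → H ≠ ⊥ → K ≠ ⊥ →
      H ⊓ Subgroup.centralizer (H : Set G) ≤ K ⊓ Subgroup.centralizer (K : Set G) → V H ≤ V K)
    (hloc : ∀ H : Subgroup G,
      (P : Subgroup G) ⊓ Subgroup.centralizer ((P : Subgroup G) : Set G) ≤ H → H ≤ (P : Subgroup G) →
      SylIn p ((P : Subgroup G) ⊓ Subgroup.normalizer (H : Set G)) (Subgroup.normalizer (H : Set G)) →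
      PTrAt W V (Subgroup.normalizer (H : Set G)) ((P : Subgroup G) ⊓ Subgroup.normalizer (H : Set G)))
    {T : Subgroup G} (hT : IsWellPlaced p W (P : Subgroup G) T) (hTne : T ≠ ⊥)
    (hZT : (P : Subgroup G) ⊓ Subgroup.centralizer ((P : Subgroup G) : Set G) ≤ T) :
    ∀ x ∈ towerN W (P : Subgroup G) T 0 ⊓
        ⁅Subgroup.normalizer (T : Set G), Subgroup.normalizer (T : Set G)⁆,
      ∃ a ∈ (P : Subgroup G) ⊓ ⁅Subgroup.normalizer ((W (P : Subgroup G) : Subgroup G) : Set G),
          Subgroup.normalizer ((W (P : Subgroup G) : Subgroup G) : Set G)⁆,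
        ∃ b ∈ (P : Subgroup G) ⊓ ⁅Subgroup.centralizer ((V (P : Subgroup G) : Subgroup G) : Set G),
            Subgroup.centralizer ((V (P : Subgroup G) : Subgroup G) : Set G)⁆, x = a * b := by
  have hpS : IsPGroup p (P : Subgroup G) := P.2
  have hZi := center_le_tower hW hpS hWZ hT.1 hZT
  have hTN : ∀ i, T ≤ towerN W (P : Subgroup G) T i := fun i =>
    (le_towerN_zero hT.1).trans (towerN_mono hW hpS T (Nat.zero_le i))
  have hB : ∀ i, ∀ b ∈ towerN W (P : Subgroup G) T i ⊓
      ⁅Subgroup.normalizer ((functorTower W (P : Subgroup G) T i : Subgroup G) : Set G) ⊓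
          Subgroup.centralizer ((V (towerN W (P : Subgroup G) T i) : Subgroup G) : Set G),
        Subgroup.normalizer ((functorTower W (P : Subgroup G) T i : Subgroup G) : Set G) ⊓
          Subgroup.centralizer ((V (towerN W (P : Subgroup G) T i) : Subgroup G) : Set G)⁆,
      b ∈ (P : Subgroup G) ⊓ ⁅Subgroup.centralizer ((V (P : Subgroup G) : Subgroup G) : Set G),
        Subgroup.centralizer ((V (P : Subgroup G) : Subgroup G) : Set G)⁆ := by
    intro i b hb
    have hne : towerN W (P : Subgroup G) T i ≠ ⊥ := by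
      intro hbot
      apply hTne
      have := hTN i
      rw [hbot] at this
      exact le_bot_iff.1 this
    have hZZ : (P : Subgroup G) ⊓ Subgroup.centralizer ((P : Subgroup G) : Set G) ≤
        towerN W (P : Subgroup G) T i ⊓
          Subgroup.centralizer ((towerN W (P : Subgroup G) T i : Subgroup G) : Set G) :=
      le_inf ((hZi i).trans (le_inf (tower_le hW hpS hT.1 i) Subgroup.le_normalizer))
        (inf_le_right.trans (Subgroup.centralizer_le (towerN_le_left W (P : Subgroup G) T i)))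
    have hVle : V (P : Subgroup G) ≤ V (towerN W (P : Subgroup G) T i) :=
      hVmono _ _ hpS (towerN_isPGroup hpS T i) hPne hne hZZ
    have hC : Subgroup.centralizer ((V (towerN W (P : Subgroup G) T i) : Subgroup G) : Set G) ≤
        Subgroup.centralizer ((V (P : Subgroup G) : Subgroup G) : Set G) :=
      Subgroup.centralizer_le hVle
    exact Subgroup.mem_inf.2 ⟨towerN_le_left W (P : Subgroup G) T i (Subgroup.mem_inf.1 hb).1,
      Subgroup.commutator_mono (inf_le_right.trans hC) (inf_le_right.trans hC)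
        (Subgroup.mem_inf.1 hb).2⟩
  have key : ∀ i, ∀ x ∈ towerN W (P : Subgroup G) T 0 ⊓
        ⁅Subgroup.normalizer (T : Set G), Subgroup.normalizer (T : Set G)⁆,
      ∃ a ∈ towerN W (P : Subgroup G) T i ⊓
          ⁅Subgroup.normalizer ((functorTower W (P : Subgroup G) T i : Subgroup G) : Set G),
            Subgroup.normalizer ((functorTower W (P : Subgroup G) T i : Subgroup G) : Set G)⁆,
        ∃ b ∈ (P : Subgroup G) ⊓ ⁅Subgroup.centralizer ((V (P : Subgroup G) : Subgroup G) : Set G),
            Subgroup.centralizer ((V (P : Subgroup G) : Subgroup G) : Set G)⁆, x = a * b := by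
    intro i
    induction i with
    | zero =>
      intro x hx
      exact ⟨x, hx, 1, one_mem _, by simp⟩
    | succ j ih =>
      intro x hx
      obtain ⟨a, ha, b, hb, rfl⟩ := ih x hx
      have hc := hloc (functorTower W (P : Subgroup G) T j) (hZi j) (tower_le hW hpS hT.1 j)
        (IsWellPlaced.sylIn hpS hT j)
      obtain ⟨a', ha', b', hb', rfl⟩ := (hc a).1 ha
      refine ⟨a', ?_, b' * b, mul_mem (hB j b' hb') hb, by group⟩
      rw [tower_succ']
      exact Subgroup.mem_inf.2 ⟨towerN_le_succ hW hpS T j (Subgroup.mem_inf.1 ha').1,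
        Subgroup.commutator_mono inf_le_right inf_le_right (Subgroup.mem_inf.1 ha').2⟩
  obtain ⟨n, hn⟩ := exists_towerN_eq hW hpS T
  intro x hx
  obtain ⟨a, ha, b, hb, rfl⟩ := key (n + 1) x hx
  rw [towerN_eq_of_le hW hpS hn (Nat.le_succ n),
    tower_eq_of_lt hW hpS hn (Nat.lt_succ_self n)] at ha
  exact ⟨a, ha, b, hb, rfl⟩

/-- Local-to-global transfer for a pair of functors (`S2001`). -/
theorem pair_transfer (P : Sylow p G) (hPne : (P : Subgroup G) ≠ ⊥)
    (W V : Subgroup G → Subgroup G) (hW : IsConjugacyFunctor p W) (hV : IsConjugacyFunctor p V)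
    (hWZ : ∀ H : Subgroup G, IsPGroup p ↥H → H ⊓ Subgroup.centralizer (H : Set G) ≤ W H)
    (hVmono : ∀ H K : Subgroup G, IsPGroup p ↥H → IsPGroup p ↥K → H ≠ ⊥ → K ≠ ⊥ →
      H ⊓ Subgroup.centralizer (H : Set G) ≤ K ⊓ Subgroup.centralizer (K : Set G) → V H ≤ V K)
    (hloc : ∀ H : Subgroup G,
      (P : Subgroup G) ⊓ Subgroup.centralizer ((P : Subgroup G) : Set G) ≤ H → H ≤ (P : Subgroup G) →
      ∃ Q : Subgroup G, Q ≤ Subgroup.normalizer (H : Set G) ∧ IsPGroup p ↥Q ∧
        ¬ p ∣ Q.relIndex (Subgroup.normalizer (H : Set G)) ∧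
        PTrAt W V (Subgroup.normalizer (H : Set G)) Q) :
    ∀ x : G, x ∈ (P : Subgroup G) ⊓ ⁅(⊤ : Subgroup G), ⊤⁆ ↔
      ∃ a ∈ (P : Subgroup G) ⊓ ⁅Subgroup.normalizer ((W (P : Subgroup G) : Subgroup G) : Set G),
          Subgroup.normalizer ((W (P : Subgroup G) : Subgroup G) : Set G)⁆,
        ∃ b ∈ (P : Subgroup G) ⊓ ⁅Subgroup.centralizer ((V (P : Subgroup G) : Subgroup G) : Set G),
            Subgroup.centralizer ((V (P : Subgroup G) : Subgroup G) : Set G)⁆, x = a * b := by
  have hpS : IsPGroup p (P : Subgroup G) := P.2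
  have hnorm : ∀ b ∈ (P : Subgroup G) ⊓
      ⁅Subgroup.centralizer ((V (P : Subgroup G) : Subgroup G) : Set G),
        Subgroup.centralizer ((V (P : Subgroup G) : Subgroup G) : Set G)⁆,
      ∀ a ∈ (P : Subgroup G) ⊓ ⁅Subgroup.normalizer ((W (P : Subgroup G) : Subgroup G) : Set G),
          Subgroup.normalizer ((W (P : Subgroup G) : Subgroup G) : Set G)⁆,
      b * a * b⁻¹ ∈ (P : Subgroup G) ⊓
        ⁅Subgroup.normalizer ((W (P : Subgroup G) : Subgroup G) : Set G),
          Subgroup.normalizer ((W (P : Subgroup G) : Subgroup G) : Set G)⁆ := by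
    intro b hb a ha
    have hbP : b ∈ (P : Subgroup G) := (Subgroup.mem_inf.1 hb).1
    have hbN : b ∈ Subgroup.normalizer ((W (P : Subgroup G) : Subgroup G) : Set G) :=
      cf_normalizer_le hW hpS (Subgroup.le_normalizer hbP)
    refine Subgroup.mem_inf.2
      ⟨mul_mem (mul_mem hbP (Subgroup.mem_inf.1 ha).1) (inv_mem hbP), ?_⟩
    have h1 := conj_mem_cj (g := b) (Subgroup.mem_inf.1 ha).2
    rwa [cj_commutator, cj_eq_self_of_mem hbN] at h1
  have hloc' : ∀ H : Subgroup G,
      (P : Subgroup G) ⊓ Subgroup.centralizer ((P : Subgroup G) : Set G) ≤ H → H ≤ (P : Subgroup G) →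
      SylIn p ((P : Subgroup G) ⊓ Subgroup.normalizer (H : Set G)) (Subgroup.normalizer (H : Set G)) →
      PTrAt W V (Subgroup.normalizer (H : Set G))
        ((P : Subgroup G) ⊓ Subgroup.normalizer (H : Set G)) := by
    intro H hZH hHP hsyl
    obtain ⟨Q, hQN, hQp, hQi, hQ⟩ := hloc H hZH hHP
    obtain ⟨k, hk, hkQ⟩ := hsyl.exists_cj_eq (⟨hQN, hQp, hQi⟩ : SylIn p Q _)
    rw [← hkQ]
    exact PTrAt.conj hW hV hQp hk hQ
  intro x
  constructor
  · intro hx
    have hle : (P : Subgroup G) ⊓ ⁅(⊤ : Subgroup G), ⊤⁆ ≤ prodSub _ _ hnorm := by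
      apply sylow_inf_commutator_le P
      intro x hx u hu
      have main : ∀ (d : ℕ) (U : Subgroup G), U ≤ (P : Subgroup G) →
          Nat.card (P : Subgroup G) - Nat.card U = d → ∀ g, cj g⁻¹ U ≤ (P : Subgroup G) →
          ∀ a ∈ U, a⁻¹ * (g⁻¹ * a * g) ∈ prodSub _ _ hnorm := by
        intro d
        induction d using Nat.strong_induction_on with
        | _ d ih =>
        intro U hU hd g hg
        by_cases hUne : U = ⊥
        · intro a ha
          rw [hUne, Subgroup.mem_bot] at ha
          subst ha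
          have e : (1 : G)⁻¹ * (g⁻¹ * 1 * g) = 1 := by group
          rw [e]; exact one_mem _
        · have hfam := isConjugationFamily_wellPlaced P hW
          obtain ⟨a₀, -⟩ := (Subgroup.ne_bot_iff_exists_ne_one.1 hUne)
          have hA : ((U : Subgroup G) : Set G) ⊆ ((P : Subgroup G) : Set G) := hU
          have hg' : rconj g ((U : Subgroup G) : Set G) ⊆ ((P : Subgroup G) : Set G) := by
            rw [← coe_cj_inv_eq_rconj]; exact hg
          obtain ⟨l, hl, hprod⟩ := chain_of_isConjugationFamily hfam (U : Set G) g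
            ⟨(a₀ : G), a₀.2⟩ hA hg'
          have hcUP : Nat.card U ≤ Nat.card (P : Subgroup G) := Subgroup.card_le_of_le hU
          have step : ∀ (T : Subgroup G), IsWellPlaced p W (P : Subgroup G) T →
              ∀ x ∈ Subgroup.normalizer (T : Set G), ∀ V₀ : Subgroup G, V₀ ≤ T →
              Nat.card V₀ = Nat.card U → ∀ a ∈ V₀, a⁻¹ * (x⁻¹ * a * x) ∈ prodSub _ _ hnorm := by
            intro T hT x hx V₀ hV₀T hV₀c a ha
            have hTP : T ≤ (P : Subgroup G) := hT.1
            have hcTP : Nat.card T ≤ Nat.card (P : Subgroup G) := Subgroup.card_le_of_le hTP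
            have hxT : cj x⁻¹ T = T := mem_normalizer_iff_cj.1 (inv_mem hx)
            by_cases hlt : Nat.card U < Nat.card T
            · exact ih (Nat.card (P : Subgroup G) - Nat.card T) (by omega) T hTP rfl x
                (by rw [hxT]; exact hTP) a (hV₀T ha)
            · have hTV : V₀ = T := eq_of_le_of_card_le hV₀T (by omega)
              subst hTV
              have hTne : V₀ ≠ ⊥ := by
                intro hbot
                apply hUne
                apply Subgroup.eq_bot_of_card_eq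
                rw [← hV₀c, hbot, Subgroup.card_bot]
              by_cases hZ : (P : Subgroup G) ⊓ Subgroup.centralizer ((P : Subgroup G) : Set G) ≤ V₀
              · have hya : x⁻¹ * a * x ∈ V₀ := by
                  have := (Subgroup.mem_normalizer_iff.1 (inv_mem hx) a).1 ha
                  simpa using this
                have hmem : a⁻¹ * (x⁻¹ * a * x) ∈ towerN W (P : Subgroup G) V₀ 0 ⊓
                    ⁅Subgroup.normalizer (V₀ : Set G), Subgroup.normalizer (V₀ : Set G)⁆ := by
                  refine Subgroup.mem_inf.2 ⟨le_towerN_zero hTP (mul_mem (inv_mem ha) hya), ?_⟩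
                  have e : a⁻¹ * (x⁻¹ * a * x) = ⁅a⁻¹, x⁻¹⁆ := by
                    rw [commutatorElement_def]; group
                  rw [e]
                  exact Subgroup.commutator_mem_commutator
                    (Subgroup.le_normalizer (inv_mem ha)) (inv_mem hx)
                exact pair_climb P hPne W V hW hWZ hVmono hloc' hT hTne hZ _ hmem
              · have hsyl : SylIn p ((P : Subgroup G) ⊓ Subgroup.normalizer (V₀ : Set G))
                    (Subgroup.normalizer (V₀ : Set G)) := IsWellPlaced.sylIn hpS hT 0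
                obtain ⟨c, hc, y, hy, rfl⟩ := frattini_enl hsyl hTP hx
                have hT₁P : enl (P : Subgroup G) V₀ ≤ (P : Subgroup G) := enl_le _ _
                have hTT₁ : V₀ ≤ enl (P : Subgroup G) V₀ := le_enl hTP
                have hne : V₀ ≠ enl (P : Subgroup G) V₀ := by
                  intro h
                  apply hZ
                  rw [h]
                  exact center_le_enl hTP
                have hcard : Nat.card V₀ < Nat.card (enl (P : Subgroup G) V₀) :=
                  card_lt_of_lt (lt_of_le_of_ne hTT₁ hne)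
                have hcT₁ : Nat.card (enl (P : Subgroup G) V₀) ≤ Nat.card (P : Subgroup G) :=
                  Subgroup.card_le_of_le hT₁P
                have hyT₁ : cj y⁻¹ (enl (P : Subgroup G) V₀) = enl (P : Subgroup G) V₀ :=
                  mem_normalizer_iff_cj.1 (inv_mem hy)
                have h3 := ih (Nat.card (P : Subgroup G) - Nat.card (enl (P : Subgroup G) V₀))
                  (by omega) (enl (P : Subgroup G) V₀) hT₁P rfl y (by rw [hyT₁]; exact hT₁P) a
                  (hTT₁ ha)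
                have hca : c⁻¹ * a * c = a := by
                  have h4 := Subgroup.mem_centralizer_iff.1 hc a ha
                  rw [mul_assoc, h4, ← mul_assoc, inv_mul_cancel, one_mul]
                have e : (c * y)⁻¹ * a * (c * y) = y⁻¹ * (c⁻¹ * a * c) * y := by group
                rw [e, hca]; exact h3
          have chainInd : ∀ (l : List (Subgroup G × G)) (V₀ : Subgroup G),
              V₀ ≤ (P : Subgroup G) → Nat.card V₀ = Nat.card U →
              Chain {T : Subgroup G | IsWellPlaced p W (P : Subgroup G) T} (V₀ : Set G) l →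
              ∀ a ∈ V₀, a⁻¹ * ((prodOf l)⁻¹ * a * prodOf l) ∈ prodSub _ _ hnorm := by
            intro l
            induction l with
            | nil =>
              intro V₀ _ _ _ a _
              rw [prodOf_nil]
              have e : a⁻¹ * ((1 : G)⁻¹ * a * 1) = 1 := by group
              rw [e]; exact one_mem _
            | cons tx l ihl =>
              intro V₀ hV₀P hV₀c hch a ha
              rw [chain_cons] at hch
              obtain ⟨hT, hx, hV₀T, hch'⟩ := hch
              have hV₀T' : V₀ ≤ tx.1 := hV₀T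
              rw [← coe_cj_inv_eq_rconj] at hch'
              have hV₁T : cj tx.2⁻¹ V₀ ≤ tx.1 := by
                have h5 := cj_mono (g := tx.2⁻¹) hV₀T'
                rwa [mem_normalizer_iff_cj.1 (inv_mem hx)] at h5
              have h1 := step tx.1 hT tx.2 hx V₀ hV₀T' hV₀c a ha
              have h2 := ihl (cj tx.2⁻¹ V₀) (hV₁T.trans hT.1) (by rw [card_cj]; exact hV₀c) hch'
                (tx.2⁻¹ * a * tx.2) (by
                  have h6 := conj_mem_cj (g := tx.2⁻¹) ha
                  rwa [inv_inv] at h6)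
              rw [prodOf_cons]
              have e : a⁻¹ * ((tx.2 * prodOf l)⁻¹ * a * (tx.2 * prodOf l)) =
                  (a⁻¹ * (tx.2⁻¹ * a * tx.2)) *
                    ((tx.2⁻¹ * a * tx.2)⁻¹ * ((prodOf l)⁻¹ * (tx.2⁻¹ * a * tx.2) * prodOf l)) := by
                group
              rw [e]; exact mul_mem h1 h2
          have h7 := chainInd l U hU rfl hl
          rw [hprod] at h7
          exact h7
      have h8 := main _ (Subgroup.zpowers x) (by rw [Subgroup.zpowers_le]; exact hx) rfl u⁻¹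
        (by
          rw [inv_inv, Subgroup.zpowers_eq_closure, cj_closure, Subgroup.closure_le]
          rintro _ ⟨_, rfl, rfl⟩
          exact hu) x (Subgroup.mem_zpowers x)
      rw [inv_inv] at h8
      exact h8
    exact hle hx
  · rintro ⟨a, ha, b, hb, rfl⟩
    exact mul_mem
      (Subgroup.mem_inf.2 ⟨(Subgroup.mem_inf.1 ha).1,
        Subgroup.commutator_mono le_top le_top (Subgroup.mem_inf.1 ha).2⟩)
      (Subgroup.mem_inf.2 ⟨(Subgroup.mem_inf.1 hb).1,
        Subgroup.commutator_mono le_top le_top (Subgroup.mem_inf.1 hb).2⟩)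

end main

end Cfsg.Agent.Lib.Helper10.PairTransfer
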